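import Cfsg.Agent.H3.S8h
import Cfsg.Prelude.Def_Local

/-! The normalizer of the four-by-four group in the exceptional configuration. -/

set_option autoImplicit false
set_option linter.unusedSectionVars false
set_option maxRecDepth 100000

namespace H6.Nu
open Subgroup Equiv H3S

def w5 : A5 := ⟨swap 0 1 * swap 1 3, by rw [Perm.mem_alternatingGroup]; decide⟩
def K : Fin 4 → A5 := ![1, e5, f5, e5 * f5]
def L : Fin 6 → A5 × A5 := ![(e5, 1), (f5, 1), (e5 * f5, 1), (1, e5), (1, f5), (1, e5 * f5)]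
def W : Fin 3 → A5 := ![1, w5, w5 * w5]

instance dA : DecidableEq A5 := fun x y => decidable_of_iff (∀ i, x.1 i = y.1 i)
  ⟨fun h => Subtype.ext (Equiv.ext h), fun h i => by rw [h]⟩

theorem Kmul : ∀ i j, ∃ k, K i * K j = K k := by decide +kernel
theorem Kinv : ∀ i, (K i)⁻¹ = K i := by decide +kernel
theorem Kinj : Function.Injective K := by
  have : ∀ i j, K i = K j → i = j := by decide +kernel
  exact this
theorem Kcomm : ∀ i j, K i * K j = K j * K i := by decide +kernel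

theorem memV {a : A5} : a ∈ V4 ↔ ∃ i, K i = a := by
  constructor
  · intro h
    induction h using closure_induction with
    | mem x hx => rcases hx with rfl | rfl; exacts [⟨1, rfl⟩, ⟨2, rfl⟩]
    | one => exact ⟨0, rfl⟩
    | mul x y _ _ hx hy =>
      obtain ⟨i, rfl⟩ := hx
      obtain ⟨j, rfl⟩ := hy
      exact (Kmul i j).imp fun k h => h.symm
    | inv x _ hx =>
      obtain ⟨i, rfl⟩ := hx
      exact ⟨i, (Kinv i).symm⟩
  · rintro ⟨i, rfl⟩
    have e : e5 ∈ V4 := subset_closure (by simp)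
    have f : f5 ∈ V4 := subset_closure (by simp)
    fin_cases i
    exacts [one_mem _, e, f, mul_mem e f]

theorem cardV : Nat.card V4 = 4 := by
  have : (V4 : Set A5) = Set.range K := Set.ext fun a => memV
  change Nat.card (V4 : Set A5) = 4
  rw [this, Nat.card_range_of_injective Kinj]
  simp

theorem Wn (x : Fin 3) : W x ∈ normalizer (V4 : Set A5) := by
  refine mem_normalizer_fintype fun a ha => ?_
  obtain ⟨i, rfl⟩ := memV.1 ha
  exact memV.2 ((by decide +kernel : ∀ x i, ∃ j, K j = W x * K i * (W x)⁻¹) x i)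

def T (i j k : Fin 6) : Prop := i ≠ j ∧ i ≠ k ∧ j ≠ k ∧ i.1 / 3 = j.1 / 3 ∧ i.1 / 3 = k.1 / 3
instance (i j k : Fin 6) : Decidable (T i j k) := by unfold T; infer_instance

theorem LT : ∀ i j k, L i * L j = L k → T i j k := by decide +kernel
theorem Linj : ∀ i j, L i = L j → i = j := by decide +kernel

def R (x y : Fin 3) : Fin 6 → Fin 6 :=
  ![⟨x.1 % 3, by omega⟩, ⟨(x.1 + 1) % 3, by omega⟩, ⟨(x.1 + 2) % 3, by omega⟩,
    ⟨3 + y.1 % 3, by omega⟩, ⟨3 + (y.1 + 1) % 3, by omega⟩, ⟨3 + (y.1 + 2) % 3, by omega⟩]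

theorem comb : ∀ a b c : Fin 6, T a b c → ∀ d e f : Fin 6, T d e f →
    (∀ i, (![a, b, c, d, e, f])^[45] i = i) → ∃ x y, ∀ i, ![a, b, c, d, e, f] i = R x y i := by
  decide +kernel

theorem RW : ∀ x y, ∃ x' y', ∀ i, L (R x y i) = (W x', W y') * L i * (W x', W y')⁻¹ := by
  decide +kernel

theorem cls : ∀ i j, (K i, K j) = 1 ∨ (∃ k, (K i, K j) = L k) ∨
    ∃ x y, (W x, W y) * (e5, e5) * (W x, W y)⁻¹ = (K i, K j) := by decide +kernel

theorem cl2 : ∀ i, (∃ x, ((1 : A5), W x) * (1, e5) * (1, W x)⁻¹ = L i) ∨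
    ∃ x, (W x, (1 : A5)) * (e5, 1) * (W x, 1)⁻¹ = L i := by decide +kernel

theorem LK : ∀ i, ∃ a b, L i = (K a, K b) := by decide +kernel
theorem L1 : ∀ i, L i ≠ 1 := by decide +kernel
theorem KL : ∀ i, (K i = 1) ∨ ((∃ k, (K i, (1 : A5)) = L k) ∧ ∃ k, ((1 : A5), K i) = L k) := by decide +kernel

variable {G : Type*} [Group G] [Finite G] {σ t : G} {θ : A5 × A5 →* G}

theorem memU {u : G} : u ∈ U θ ↔ ∃ i j, θ (K i, K j) = u := by
  constructor
  · rintro ⟨⟨a, b⟩, ⟨ha, hb⟩, rfl⟩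
    obtain ⟨i, rfl⟩ := memV.1 ha
    obtain ⟨j, rfl⟩ := memV.1 hb
    exact ⟨i, j, rfl⟩
  · rintro ⟨i, j, rfl⟩
    exact ⟨_, ⟨memV.2 ⟨i, rfl⟩, memV.2 ⟨j, rfl⟩⟩, rfl⟩

theorem cardU (inj : Function.Injective θ) : Nat.card (U θ) = 16 := by
  rw [U, card_map_of_injective inj, Nat.card_congr (V4.prodEquiv V4).toEquiv, Nat.card_prod, cardV]

theorem commU {u v : G} (hu : u ∈ U θ) (hv : v ∈ U θ) : u * v = v * u := by
  obtain ⟨i, j, rfl⟩ := memU.1 hu
  obtain ⟨k, l, rfl⟩ := memU.1 hv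
  rw [← map_mul, ← map_mul, Prod.mk_mul_mk, Prod.mk_mul_mk, Kcomm i, Kcomm j]

theorem rL (h : H2 θ t σ) (i : Fin 6) : IsConj (θ (1, e5)) (θ (L i)) := by
  rcases cl2 i with ⟨x, e⟩ | ⟨x, e⟩
  · exact θ.map_isConj (isConj_iff.2 ⟨_, e⟩)
  · refine IsConj.trans (isConj_iff.2 ⟨σ, ?_⟩) (θ.map_isConj (isConj_iff.2 ⟨_, e⟩))
    rw [inv_eq_of_mul_eq_one_right h.ss, h.sa]

theorem nu (h : H2 θ t σ) (h1 : ¬ IsConj (θ (1, e5)) (θ (e5, e5))) (N : Subgroup G) (hM : θ.range ≤ N) (h32 : ¬ 32 ∣ Nat.card N) : NU θ N := by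
  intro n hn hU
  have UN : U θ ≤ N ⊓ normalizer (U θ : Set G) := le_inf ((map_le_range _ _).trans hM) le_normalizer
  obtain ⟨k, ko, hk⟩ : ∃ k, Odd k ∧ n ^ k ∈ U θ := by
    have : ((U θ).subgroupOf (N ⊓ normalizer (U θ : Set G))).Normal :=
      (normal_subgroupOf_iff_le_normalizer UN).2 inf_le_right
    refine ⟨_, ?_, (pow_index_mem (H := (U θ).subgroupOf (N ⊓ normalizer (U θ : Set G))) ⟨n, hn, hU⟩ :)⟩
    rw [← Nat.not_even_iff_odd, even_iff_two_dvd]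
    rintro ⟨c, hc⟩
    have e := ((U θ).subgroupOf (N ⊓ normalizer (U θ : Set G))).card_mul_index
    rw [hc, Nat.card_congr (subgroupOfEquivOfLe UN).toEquiv, cardU h.inj] at e
    exact h32 (Dvd.dvd.trans ⟨c, by omega⟩ (card_dvd_of_le (inf_le_left : N ⊓ normalizer (U θ : Set G) ≤ N)))
  have LU : ∀ i, θ (L i) ∈ U θ := fun i => by
    obtain ⟨a, b, e⟩ := LK i
    exact memU.2 ⟨a, b, by rw [e]⟩
  have hx : ∀ i, ∃ j, n * θ (L i) * n⁻¹ = θ (L j) := fun i => by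
    obtain ⟨a, b, e⟩ := memU.1 ((mem_normalizer_iff.1 hU _).1 (LU i))
    have c : IsConj (θ (1, e5)) (θ (K a, K b)) := (rL h i).trans (isConj_iff.2 ⟨n, e.symm⟩)
    rcases cls a b with e1 | ⟨j, e1⟩ | ⟨x, y, e1⟩
    · rw [e1, map_one, eq_comm, conj_eq_one_iff, ← map_one θ] at e
      exact absurd (h.inj e) (L1 i)
    · exact ⟨j, by rw [← e, e1]⟩
    · exact absurd (c.trans (θ.map_isConj (isConj_iff.2 ⟨_, e1⟩)).symm) h1
  choose φ hφ using hx
  have it : ∀ m i, n ^ m * θ (L i) * (n ^ m)⁻¹ = θ (L (φ^[m] i)) := fun m i => by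
    induction m with
    | zero => simp
    | succ m ih => rw [Function.iterate_succ_apply', ← hφ, ← ih, pow_succ']; group
  have φi : Function.Injective φ := fun i j e => by
    have := hφ i
    rw [e, ← hφ j, mul_left_inj, mul_right_inj] at this
    exact Linj _ _ (h.inj this)
  let π : Perm (Fin 6) := Equiv.ofBijective φ (Finite.injective_iff_bijective.1 φi)
  have πp : ∀ m i, (π ^ m) i = φ^[m] i := fun m i => by rw [Perm.coe_pow]; rfl
  have πk : π ^ k = 1 := Equiv.ext fun i => by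
    rw [πp]
    refine Linj _ _ (h.inj ?_)
    rw [← it, commU hk (LU i), mul_inv_cancel_right]; rfl
  have π45 : π ^ 45 = 1 := by
    have d1 := orderOf_dvd_of_pow_eq_one πk
    have d2 : orderOf π ∣ 2 ^ 4 * 45 := by
      have := orderOf_dvd_card (x := π)
      rwa [Fintype.card_perm, Fintype.card_fin] at this
    exact orderOf_dvd_iff_pow_eq_one.1 ((Nat.Coprime.pow_right 4 (Nat.Coprime.coprime_dvd_left d1
      (Nat.coprime_two_right.2 ko))).dvd_of_dvd_mul_left d2)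
  have mu : ∀ i j l, L i * L j = L l → T (φ i) (φ j) (φ l) := fun i j l e => LT _ _ _ (h.inj (by
    rw [map_mul, ← hφ, ← hφ, ← hφ, ← e, map_mul]; group))
  have ev : ![φ 0, φ 1, φ 2, φ 3, φ 4, φ 5] = φ := funext fun i => by fin_cases i <;> rfl
  obtain ⟨x, y, hr⟩ := comb _ _ _ (mu 0 1 2 (by decide +kernel)) _ _ _ (mu 3 4 5 (by decide +kernel)) fun i => by
    rw [ev, ← πp, π45]; rfl
  rw [ev] at hr
  obtain ⟨x', y', e⟩ := RW x y
  refine ⟨_, Wn x', _, Wn y', fun u hu => ?_⟩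
  have g : ∀ i, n * θ (L i) * n⁻¹ = θ (W x', W y') * θ (L i) * (θ (W x', W y'))⁻¹ := fun i => by
    rw [hφ, hr, e, map_mul, map_mul, map_inv]
  obtain ⟨i, j, rfl⟩ := memU.1 hu
  have a1 : n * θ (K i, 1) * n⁻¹ = θ (W x', W y') * θ (K i, 1) * (θ (W x', W y'))⁻¹ := by
    rcases KL i with e1 | ⟨⟨l, e1⟩, -⟩
    · rw [e1, show ((1 : A5), (1 : A5)) = 1 from rfl, map_one]; group
    · rw [e1, g]
  have a2 : n * θ (1, K j) * n⁻¹ = θ (W x', W y') * θ (1, K j) * (θ (W x', W y'))⁻¹ := by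
    rcases KL j with e1 | ⟨-, l, e1⟩
    · rw [e1, show ((1 : A5), (1 : A5)) = 1 from rfl, map_one]; group
    · rw [e1, g]
  rw [show (K i, K j) = (K i, 1) * (1, K j) by simp, map_mul]
  calc _ = n * θ (K i, 1) * n⁻¹ * (n * θ (1, K j) * n⁻¹) := by group
    _ = _ := by rw [a1, a2]; group

end H6.Nu
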