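import Cfsg.Agent.H3.Critical
import Cfsg.Agent.H7.PGrp
import Cfsg.Agent.H9.Rank
import Cfsg.Agent.H6.Dihedral
import Cfsg.Agent.H16.Not

/-! 2-groups with the upper central series of a Sylow 2-subgroup of the Rudvalis group. -/

set_option autoImplicit false
set_option linter.unusedSectionVars false

namespace H6.Rud

open Subgroup H16
open scoped commutatorElement

variable {T : Type*} [Group T] [Finite T]

local notation "Z" => Subgroup.upperCentralSeries T

open Classical in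
noncomputable def sg (M : Subgroup T) (x : T) : ℤˣ := if x ∈ M then 1 else -1

theorem sg_eq_one {M : Subgroup T} {x : T} : sg M x = 1 ↔ x ∈ M := by
  unfold sg; split_ifs with h <;> simp [h]

theorem mul_mem_iff {M N : Subgroup T} (h : M.relIndex N = 2) {x y : T} (hx : x ∈ N) (hy : y ∈ N) :
    x * y ∈ M ↔ (x ∈ M ↔ y ∈ M) :=
  mul_mem_iff_of_index_two (H := M.subgroupOf N) h (a := ⟨x, hx⟩) (b := ⟨y, hy⟩)

theorem sg_mul {M N : Subgroup T} (h : M.relIndex N = 2) {x y : T} (hx : x ∈ N) (hy : y ∈ N) :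
    sg M (x * y) = sg M x * sg M y := by
  unfold sg
  rw [mul_mem_iff h hx hy]
  by_cases a : x ∈ M <;> by_cases b : y ∈ M <;> simp [a, b]

theorem sg_inv (M : Subgroup T) (x : T) : sg M x⁻¹ = sg M x := by
  unfold sg; rw [inv_mem_iff]

theorem sg_conj (M : Subgroup T) [hM : M.Normal] (g x : T) : sg M (g * x * g⁻¹) = sg M x := by
  unfold sg; rw [hM.mem_comm_iff, inv_mul_cancel_left]

theorem exists_cen (hT : IsPGroup 2 T) {N : Subgroup T} [N.Normal] {k : ℕ} (h : ¬ N ≤ Z k) :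
    ∃ x ∈ N, x ∈ Z (k + 1) ∧ x ∉ Z k := by
  haveI : (N.map (QuotientGroup.mk' (Z k))).Normal := Normal.map ‹_› _ (QuotientGroup.mk'_surjective _)
  have h1 := H7.inf_center_ne_bot (hT.to_quotient (Z k)) (N.map (QuotientGroup.mk' (Z k)))
    (fun e => h (by rwa [Subgroup.map_eq_bot_iff, QuotientGroup.ker_mk'] at e))
  obtain ⟨_, ⟨⟨x, hx, rfl⟩, h2⟩, h3⟩ := exists_ne_one h1
  refine ⟨x, hx, Subgroup.mem_upperCentralSeries_succ_iff.2 fun y => (QuotientGroup.eq_one_iff _).1 ?_,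
    fun e => h3 ((QuotientGroup.eq_one_iff _).2 e)⟩
  have := mem_center_iff.1 h2 (y : T ⧸ Z k)
  simp only [commutatorElement_def, QuotientGroup.mk_mul, QuotientGroup.mk_inv]
  rw [QuotientGroup.mk'_apply] at this
  rw [← this]; group

theorem relIndex_le_two {U : Subgroup T} {p : T} (h1 : p ∈ N[U]) (h2 : p * p ∈ U) :
    U.relIndex (U ⊔ zpowers p) ≤ 2 := by
  rw [relIndex_sup_l (zpowers_le.2 h1)]
  let f : Bool → zpowers p ⧸ U.subgroupOf (zpowers p) := fun b =>
    if b then ((⟨p, mem_zpowers p⟩ : zpowers p) : _) else ((1 : zpowers p) : _)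
  refine (Nat.card_le_card_of_surjective f fun q => ?_).trans (by simp)
  obtain ⟨⟨_, n, rfl⟩, rfl⟩ := QuotientGroup.mk_surjective q
  obtain ⟨k, rfl | rfl⟩ := Int.even_or_odd' n
  · refine ⟨false, QuotientGroup.eq.2 (mem_subgroupOf.2 ?_)⟩
    have : p ^ (2 * k) = (p * p) ^ k := by rw [← zpow_two]; group
    simpa [this] using zpow_mem h2 k
  · refine ⟨true, QuotientGroup.eq.2 (mem_subgroupOf.2 ?_)⟩
    have : p⁻¹ * p ^ (2 * k + 1) = (p * p) ^ k := by rw [← zpow_two]; group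
    simpa [this] using zpow_mem h2 k

theorem comm_mem_of_sq {U H : Subgroup T} (h : ∀ x ∈ U, x * x ∈ H) : ⁅U, U⁆ ≤ H :=
  commutator_le.2 fun a ha b hb => by
    have : ⁅a, b⁆ = (a * b * (a * b)) * ((b⁻¹ * a⁻¹ * b) * (b⁻¹ * a⁻¹ * b)) * (b⁻¹ * b⁻¹) := by
      rw [commutatorElement_def]; group
    rw [this]
    exact mul_mem (mul_mem (h _ (mul_mem ha hb)) (h _ (mul_mem (mul_mem (inv_mem hb) (inv_mem ha)) hb)))
      (h _ (inv_mem hb))

structure Hyp (W : Subgroup T) : Prop where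
  pg : IsPGroup 2 T
  ha : 2 ^ 14 ≤ Nat.card T
  hb : Nat.card ↥(Z 4) = 16
  hW : W = C[Z 3]
  hc : Nat.card ↥(frattini ↥W) ≤ 8
  hd : ∀ U : Subgroup ↥W, U.index ≤ 16 → frattini ↥W ≤ U

theorem Z_le (i : ℕ) : Z i ≤ Z (i + 1) := Subgroup.upperCentralSeries_mono T (Nat.le_succ i)

namespace Hyp
variable {W : Subgroup T} (h : Hyp W)
include h

theorem cardZ {i : ℕ} (hi : i ≤ 4) : Nat.card ↥(Z i) = 2 ^ i := by
  have key : ∀ j < 4, 2 * Nat.card ↥(Z j) ≤ Nat.card ↥(Z (j + 1)) := fun j hj => by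
    obtain ⟨x, -, h1, h2⟩ := exists_cen h.pg (N := ⊤) (k := j) fun e => by
      have := card_le (e.trans (Subgroup.upperCentralSeries_mono T hj.le))
      have := h.ha
      rw [h.hb, card_top] at *
      omega
    rw [← card_mul_relIndex (Z_le j), mul_comm]
    refine Nat.mul_le_mul_left _ ?_
    have h3 := relIndex_pos (Z j) (Z (j + 1))
    have h4 : (Z j).relIndex (Z (j + 1)) ≠ 1 := fun e => h2 (relIndex_eq_one.1 e h1)
    omega
  have h0 : Nat.card ↥(Z 0) = 1 := by simp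
  have h1 := key 0 (by omega)
  have h2 := key 1 (by omega)
  have h3 := key 2 (by omega)
  have h4 := key 3 (by omega)
  have h5 := h.hb
  simp only [Nat.reduceAdd] at h1 h2 h3 h4
  interval_cases i <;> omega

theorem rel {i : ℕ} (hi : i < 4) : (Z i).relIndex (Z (i + 1)) = 2 := by
  have := card_mul_relIndex (Z_le (T := T) i)
  rw [h.cardZ hi.le, h.cardZ hi, pow_succ] at this
  exact Nat.eq_of_mul_eq_mul_left (by positivity) this

theorem step {N : Subgroup T} [N.Normal] {i : ℕ} (hi : i < 4) (h1 : Z i ≤ N) (h2 : ¬ N ≤ Z i) :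
    Z (i + 1) ≤ N := fun y hy => by
  obtain ⟨x, hx, h3, h4⟩ := exists_cen h.pg h2
  by_cases e : y ∈ Z i
  · exact h1 e
  · simpa using mul_mem (inv_mem hx) (h1 ((mul_mem_iff (h.rel hi) h3 hy).2 (by simp [h4, e])))

theorem eq_Z {N : Subgroup T} [N.Normal] {k : ℕ} (hk : k ≤ 4) (h1 : Nat.card N = 2 ^ k) : N = Z k := by
  have : ∀ i ≤ k, Z i ≤ N := fun i hi => by
    induction i with
    | zero => simp
    | succ i ih =>
      refine h.step (by omega) (ih (by omega)) fun e => ?_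
      have := card_le e
      rw [h1, h.cardZ (by omega)] at this
      have := Nat.pow_lt_pow_right (a := 2) (by norm_num) (show i < k by omega)
      omega
  exact (eq_of_le_of_card (this k le_rfl) (by rw [h1, h.cardZ hk])).symm

theorem char : W.Characteristic := by rw [h.hW]; infer_instance
theorem normal : W.Normal := by have := h.char; infer_instance
theorem index_le : W.index ≤ 8 := by
  rw [h.hW]; exact H9.index_centralizer_le_pow h.pg 3 _ (h.cardZ (by norm_num))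

theorem main : haveI := h.normal
    W.index = 8 ∧ Nat.card W = 2 ^ 11 ∧ (frattini W).map W.subtype = Z 3 ∧
      ∃ Θ : W →* (T ⧸ W → ℤˣ), Function.Surjective Θ ∧ (∀ u : W, Θ u = 1 ↔ (u : T) ∈ Z 3) ∧
      ∀ (g : T) (u v : W), (v : T) = g * u * g⁻¹ → ∀ q, Θ v q = Θ u ((g : T ⧸ W)⁻¹ * q) := by
  haveI := h.normal
  haveI := h.char
  have hW := h.normal
  have hΦn : ((frattini W).map W.subtype).Normal := inferInstance
  obtain ⟨k, hk⟩ := IsPGroup.iff_card.1 (h.pg.to_subgroup ((frattini W).map W.subtype))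
  have k3 : k ≤ 3 := by
    have := h.hc
    rw [← card_subtype, hk] at this
    exact (Nat.pow_le_pow_iff_right (a := 2) (n := k) (m := 3) (by norm_num)).1 this
  have k8 : 2 ^ k ≤ 8 := Nat.pow_le_pow_right (n := 2) (by norm_num) k3
  have hΦ := h.eq_Z (by omega) hk
  have hT := W.card_mul_index
  have hi := h.index_le
  have ha := h.ha
  obtain ⟨x, hx, x1, x2⟩ := exists_cen h.pg (N := W) (k := k) fun e => by
    have := card_le e
    rw [h.cardZ (by omega)] at this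
    nlinarith
  obtain ⟨M', hM', xM⟩ : ∃ M' : Subgroup W, IsCoatom M' ∧ ⟨x, hx⟩ ∉ M' := by
    by_contra! H
    exact x2 (hΦ ▸ ⟨_, H3.mem_frattini_iff.2 H, rfl⟩)
  set M := M'.map W.subtype with hM
  have hr : M.relIndex W = 2 := by
    rw [relIndex, hM, subgroupOf, comap_map_eq_self_of_injective W.subtype_injective]
    exact H7.index_eq_prime_of_isCoatom (h.pg.to_subgroup W) hM'
  have ZM : Z k ≤ M := hΦ ▸ map_mono (frattini_le_coatom hM')
  let Θ : W →* (T ⧸ W → ℤˣ) := MonoidHom.mk' (fun u q => sg M (q.out⁻¹ * u * q.out)) fun u v => by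
    funext q
    rw [Pi.mul_apply, ← sg_mul hr (hW.conj_mem' _ u.2 _) (hW.conj_mem' _ v.2 _), coe_mul]
    congr 1; group
  have hΘ : ∀ (u : W) (g : T), Θ u g = sg M (g⁻¹ * u * g) := fun u g => by
    obtain ⟨m, hm⟩ := QuotientGroup.mk_out_eq_mul W g
    change sg M (_⁻¹ * u * _) = _
    rw [hm, show (g * m)⁻¹ * u * (g * m) = (m : T)⁻¹ * ((g⁻¹ * u * g) * m) by group,
      sg_mul hr (inv_mem m.2) (mul_mem (hW.conj_mem' _ u.2 _) m.2), sg_mul hr (hW.conj_mem' _ u.2 _) m.2,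
      sg_inv, mul_left_comm, Int.units_mul_self, mul_one]
  have heq : ∀ (g : T) (u v : W), (v : T) = g * u * g⁻¹ → ∀ q, Θ v q = Θ u ((g : T ⧸ W)⁻¹ * q) := by
    intro g u v e q
    obtain ⟨c, rfl⟩ := QuotientGroup.mk_surjective q
    rw [← QuotientGroup.mk_inv, ← QuotientGroup.mk_mul, hΘ, hΘ, e]
    congr 1; group
  have hker : Θ.ker.map W.subtype = Z k := by
    haveI : (Θ.ker.map W.subtype).Normal := ⟨by
      rintro _ ⟨u, hu, rfl⟩ g
      refine ⟨⟨_, hW.conj_mem _ u.2 g⟩, funext fun q => ?_, rfl⟩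
      rw [heq g u _ rfl, MonoidHom.mem_ker.1 hu]; rfl⟩
    have h1 : Z k ≤ Θ.ker.map W.subtype := fun y hy => by
      refine ⟨⟨y, map_subtype_le _ (ZM hy)⟩, funext fun q => ?_, rfl⟩
      exact sg_eq_one.2 (ZM ((inferInstance : (Z k).Normal).conj_mem' _ hy _))
    refine le_antisymm ?_ h1
    by_contra e
    obtain ⟨u, hu, e1⟩ := h.step (by omega) h1 e x1
    have := congrFun (MonoidHom.mem_ker.1 hu) ((1 : T) : T ⧸ W)
    rw [hΘ] at this
    obtain ⟨v, hv, e2⟩ := sg_eq_one.1 this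
    have e3 : v = ⟨x, hx⟩ := Subtype.ext (by simpa [← e1] using e2)
    exact xM (e3 ▸ hv)
  have c1 : Nat.card Θ.ker = 2 ^ k := by rw [← card_subtype, hker, h.cardZ (by omega)]
  have c2 : Nat.card (T ⧸ W → ℤˣ) = 2 ^ W.index := by
    rw [Nat.card_fun, Nat.card_eq_fintype_card (α := ℤˣ), Fintype.card_units_int]; rfl
  have c3 : Nat.card Θ.range ≤ 2 ^ W.index := c2 ▸ card_le_card_group _
  have c4 := Θ.ker.card_mul_index
  rw [c1, index_ker] at c4
  have i8 : W.index = 8 := by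
    by_contra e
    have : 2 ^ W.index ≤ 2 ^ 7 := Nat.pow_le_pow_right (by norm_num) (by omega)
    have : Nat.card W ≤ 8 * 2 ^ 7 := c4 ▸ Nat.mul_le_mul k8 (by omega)
    nlinarith
  rw [i8] at c2 c3 hT
  have c5 : Nat.card W ≤ 2 ^ k * 2 ^ 8 := c4 ▸ Nat.mul_le_mul_left _ c3
  obtain rfl : k = 3 := by
    by_contra e
    have : 2 ^ k ≤ 2 ^ 2 := Nat.pow_le_pow_right (by norm_num) (by omega)
    omega
  refine ⟨i8, by omega, hΦ, Θ, ?_, fun u => ?_, heq⟩
  · rw [← MonoidHom.range_eq_top]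
    exact eq_top_of_le_card _ (by omega)
  · rw [← hker]
    exact ⟨fun e => ⟨u, e, rfl⟩, fun ⟨v, hv, e⟩ => (Subtype.ext e : v = u) ▸ hv⟩

theorem fr : (frattini W).map W.subtype = Z 3 := h.main.2.2.1
theorem ZW : Z 3 ≤ W := h.fr ▸ map_subtype_le _
theorem cen {z u : T} (hz : z ∈ Z 3) (hu : u ∈ W) : z * u = u * z := mem_cent.1 (h.hW ▸ hu) z hz
theorem sq_mem {u : T} (hu : u ∈ W) : u * u ∈ Z 3 :=
  h.fr ▸ sq u ▸ H3.pow_mem_map_frattini (h.pg.to_subgroup W) hu
theorem comm_mem {u v : T} (hu : u ∈ W) (hv : v ∈ W) : ⁅u, v⁆ ∈ Z 3 :=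
  comm_mem_of_sq (fun _ => h.sq_mem) (commutator_mem_commutator hu hv)

theorem star {U H : Subgroup T} (h1 : U ≤ W) (h2 : U.relIndex W ≤ 8) (h3 : ∀ x ∈ U, x * x ∈ H) :
    Z 3 ≤ H := by
  refine le_trans ?_ (H3.map_frattini_le_of (p := 2) (comm_mem_of_sq h3) fun x hx => sq x ▸ h3 x hx)
  have key : ∀ V : Subgroup T, V ≤ W → V.relIndex W ≤ 16 → Z 3 ≤ V := fun V hV e => by
    rw [← h.fr, ← map_subgroupOf_eq_of_le hV]
    exact map_mono (h.hd _ e)
  intro z hz
  refine ⟨⟨z, key U h1 (by omega) hz⟩, H3.mem_frattini_iff.2 fun M hM => ?_, rfl⟩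
  have h4 : (M.map U.subtype).relIndex U = 2 := by
    rw [relIndex, subgroupOf, comap_map_eq_self_of_injective U.subtype_injective]
    exact H7.index_eq_prime_of_isCoatom (h.pg.to_subgroup U) hM
  have h5 := relIndex_mul_relIndex _ _ _ (map_subtype_le M) h1
  obtain ⟨v, hv, e⟩ := key _ ((map_subtype_le M).trans h1) (by rw [← h5, h4]; omega) hz
  obtain rfl : (v : T) = z := e
  exact hv

end Hyp

end H6.Rud
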