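import Cfsg.Agent.H6.Rud
import Cfsg.Agent.H1.Frattini

/-! 2-groups with the upper central series of a Sylow 2-subgroup of the Rudvalis group, continued. -/

set_option autoImplicit false
set_option linter.unusedSectionVars false

namespace H6.Rud

open Subgroup H16
open scoped commutatorElement

variable {T : Type*} [Group T] [Finite T]

local notation "Z" => Subgroup.upperCentralSeries T

theorem le_of_rel {M N K : Subgroup T} (h : M.relIndex N = 2) (h1 : M ≤ K) {x : T} (hx : x ∈ N) (h2 : x ∉ M)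
    (h3 : x ∈ K) : N ≤ K := fun y hy => by
  by_cases e : y ∈ M
  · exact h1 e
  · simpa using mul_mem (inv_mem h3) (h1 ((mul_mem_iff h hx hy).2 (by simp [h2, e])))

theorem exists_not_mem {M N : Subgroup T} (h : M.relIndex N = 2) : ∃ x ∈ N, x ∉ M := by
  by_contra! H
  rw [relIndex_eq_one.2 H] at h
  omega

noncomputable def cc (u v : T) : ℤˣ := sg (Z 2) ⁅u, v⁆

theorem cc_symm (u v : T) : cc u v = cc v u := by rw [cc, cc, ← commutatorElement_inv, sg_inv]
theorem cc_conj (g u v : T) : cc (g * u * g⁻¹) (g * v * g⁻¹) = cc u v := by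
  rw [cc, cc, ← sg_conj (Z 2) g ⁅u, v⁆]; congr 1; simp only [commutatorElement_def]; group
theorem cc_of_comm {u v : T} (h : u * v = v * u) : cc u v = 1 := by
  rw [cc, commutatorElement_eq_one_iff_mul_comm.2 h, sg_eq_one]; exact one_mem _

open DihedralGroup in
theorem d4_fun (F : DihedralGroup 4 → ℤˣ) (h : ∀ d, F d⁻¹ = F d) (h1 : F (r 0) = 1) (h2 : F (r 2) = 1)
    (h3 : F (sr 1) = 1) (h4 : F (sr 3) = 1) (h5 : ∏ d, F d = 1) (d : DihedralGroup 4) : F (d * r 2) = F d := by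
  have hu : (Finset.univ : Finset (DihedralGroup 4)) = {r 0, r 1, r 2, r 3, sr 0, sr 1, sr 2, sr 3} := by decide
  have h6 : F (r 3) = F (r 1) := h (r 1)
  rw [hu, Finset.prod_insert (by decide), Finset.prod_insert (by decide), Finset.prod_insert (by decide),
    Finset.prod_insert (by decide), Finset.prod_insert (by decide), Finset.prod_insert (by decide),
    Finset.prod_insert (by decide), Finset.prod_singleton, h1, h2, h3, h4, h6] at h5
  have h7 : F (sr 2) = F (sr 0) := by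
    revert h5
    rcases Int.units_eq_one_or (F (r 1)) with a | a <;> rcases Int.units_eq_one_or (F (sr 0)) with b | b <;>
      rcases Int.units_eq_one_or (F (sr 2)) with c | c <;> simp [a, b, c]
  have : d ∈ (Finset.univ : Finset (DihedralGroup 4)) := Finset.mem_univ d
  rw [hu] at this
  simp only [Finset.mem_insert, Finset.mem_singleton] at this
  rcases this with rfl | rfl | rfl | rfl | rfl | rfl | rfl | rfl
  exacts [h2.trans h1.symm, h6, h1.trans h2.symm, h6.symm, h7, h4.trans h3.symm, h7.symm, h3.trans h4.symm]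

open DihedralGroup in
theorem d4_cases : ∀ d : DihedralGroup 4, ∃ d', (d' = r 0 ∨ d' = r 1 ∨ d' = sr 0 ∨ d' = sr 1) ∧
    (d = d' ∨ d = d' * r 2) := by decide

namespace Hyp
variable {W : Subgroup T} (h : Hyp W)
include h

theorem cc_mul {u v w : T} (hu : u ∈ W) (hv : v ∈ W) (hw : w ∈ W) : cc (u * v) w = cc u w * cc v w := by
  have : ⁅u * v, w⁆ = u * ⁅v, w⁆ * u⁻¹ * ⁅u, w⁆ := by simp only [commutatorElement_def]; group
  rw [cc, this, sg_mul (h.rel (i := 2) (by norm_num))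
    ((inferInstance : (Z 3).Normal).conj_mem _ (h.comm_mem hv hw) u) (h.comm_mem hu hw), sg_conj, mul_comm]
  rfl
theorem cc_mul' {u v w : T} (hu : u ∈ W) (hv : v ∈ W) (hw : w ∈ W) : cc w (u * v) = cc w u * cc w v := by
  rw [cc_symm, h.cc_mul hu hv hw, cc_symm u, cc_symm v]
theorem cc_inv {u v : T} (hu : u ∈ W) (hv : v ∈ W) : cc u⁻¹ v = cc u v := by
  have := h.cc_mul (inv_mem hu) hu hv
  rw [inv_mul_cancel, cc_of_comm (by simp)] at this
  rw [eq_inv_of_mul_eq_one_left this.symm, Int.units_inv_eq_self]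
theorem sq_mul {u v : T} (hu : u ∈ W) (hv : v ∈ W) :
    sg (Z 2) (u * v * (u * v)) = sg (Z 2) (u * u) * cc u v * sg (Z 2) (v * v) := by
  have : u * v * (u * v) = u * u * ⁅u⁻¹, v⁆ * (v * v) := by simp only [commutatorElement_def]; group
  have h1 := h.comm_mem (inv_mem hu) hv
  rw [this, sg_mul (h.rel (i := 2) (by norm_num)) (mul_mem (h.sq_mem hu) h1) (h.sq_mem hv),
    sg_mul (h.rel (i := 2) (by norm_num)) (h.sq_mem hu) h1, ← h.cc_inv hu hv]
  rfl
theorem not_le : ¬ Z 3 ≤ Z 2 := fun e => by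
  have := card_le e
  rw [h.cardZ (by norm_num), h.cardZ (by norm_num)] at this
  omega

theorem comm_eq : ⁅W, W⁆ = Z 3 := by
  haveI := h.normal
  have h1 : ⁅W, W⁆ ≤ Z 3 := comm_mem_of_sq fun _ => h.sq_mem
  by_contra e
  have h2 : ⁅W, W⁆ ≤ Z 2 := by
    obtain ⟨k, hk⟩ := IsPGroup.iff_card.1 (h.pg.to_subgroup ⁅W, W⁆)
    have := card_lt (lt_of_le_of_ne h1 e)
    rw [hk, h.cardZ (by norm_num), Nat.pow_lt_pow_iff_right (by norm_num)] at this
    rw [h.eq_Z (by omega) hk]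
    exact Subgroup.upperCentralSeries_mono T (by omega)
  let f : W →* ℤˣ := MonoidHom.mk' (fun u => sg (Z 2) (u * u)) fun u v => by
    rw [coe_mul, h.sq_mul u.2 v.2, cc, sg_eq_one.2 (h2 (commutator_mem_commutator u.2 v.2)), mul_one]
  refine h.not_le (h.star (map_subtype_le f.ker) ?_ ?_)
  · rw [relIndex, subgroupOf, comap_map_eq_self_of_injective W.subtype_injective, index_ker]
    exact (card_le_card_group _).trans (by rw [Nat.card_eq_fintype_card, Fintype.card_units_int]; norm_num)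
  · rintro _ ⟨u, hu, rfl⟩
    exact sg_eq_one.1 hu

theorem elem {z : T} (hz : z ∈ Z 3) : z * z = 1 := by
  rw [← h.comm_eq, Subgroup.commutator_def] at hz
  have key : z ∈ Z 3 ∧ z * z = 1 := by
    induction hz using closure_induction with
    | mem x hx =>
      obtain ⟨a, ha, b, hb, rfl⟩ := hx
      refine ⟨h.comm_mem ha hb, ?_⟩
      calc _ = a * (⁅a, b⁆ * a⁻¹) * ⁅a, b⁆ * (a * a⁻¹) := by rw [h.cen (h.comm_mem ha hb) (inv_mem ha)]; group
        _ = a * a * b * (a * a)⁻¹ * b⁻¹ := by simp only [commutatorElement_def]; group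
        _ = 1 := by rw [h.cen (h.sq_mem ha) hb]; group
    | one => simp
    | mul x y _ _ hx hy =>
      refine ⟨mul_mem hx.1 hy.1, ?_⟩
      rw [mul_assoc, ← mul_assoc y, h.cen hy.1 (h.ZW hx.1), mul_assoc, hy.2, mul_one, hx.2]
    | inv x _ hx => exact ⟨inv_mem hx.1, by rw [← mul_inv_rev, hx.2, inv_one]⟩
  exact key.2

open DihedralGroup in
theorem d8 : haveI := h.normal
    ∃ e : DihedralGroup 4 ≃* T ⧸ W, ∀ g : T, (g : T ⧸ W) = e (r 0) ∨ (g : T ⧸ W) = e (r 2) ∨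
      (g : T ⧸ W) = e (sr 1) ∨ (g : T ⧸ W) = e (sr 3) → g ∈ C[Z 2] := by
  haveI := h.normal
  obtain ⟨z, z1, z0⟩ := exists_not_mem (h.rel (i := 0) (by norm_num))
  obtain ⟨x, x2, x1⟩ := exists_not_mem (h.rel (i := 1) (by norm_num))
  obtain ⟨y, y3, y2⟩ := exists_not_mem (h.rel (i := 2) (by norm_num))
  have hz : ∀ g : T, g * z * g⁻¹ = z := fun g => by
    rw [zero_add, Subgroup.upperCentralSeries_one] at z1
    rw [mem_center_iff.1 z1 g]; group
  have c2 : ∀ g : T, g * x * g⁻¹ = x → g ∈ C[Z 2] := fun g e => le_cent1.1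
    (le_of_rel (h.rel (i := 1) (by norm_num)) (fun t ht => by
      rw [Subgroup.upperCentralSeries_one] at ht
      exact mem_cent1.2 (mem_center_iff.1 ht g).symm) x2 x1 (mem_cent1.2 (mul_inv_eq_iff_eq_mul.1 e).symm))
  have c3 : ∀ g : T, g * x * g⁻¹ = x → g * y * g⁻¹ = y → g ∈ W := fun g e e' => h.hW ▸ le_cent1.1
    (le_of_rel (h.rel (i := 2) (by norm_num)) (le_cent1.2 (c2 g e)) y3 y2
      (mem_cent1.2 (mul_inv_eq_iff_eq_mul.1 e').symm))
  have m : ∀ {i : ℕ} {t : T}, t ∈ Z (i + 1) → ∀ g, ⁅g, t⁆ ∈ Z i := fun ht g => by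
    rw [← commutatorElement_inv]; exact inv_mem (ht g)
  let Φ : T ⧸ W → Z 1 × Z 2 := fun q => (⟨_, m x2 q.out⟩, ⟨_, m y3 q.out⟩)
  have hΦ : Function.Injective Φ := fun p q e => by
    have e1 : ⁅p.out, x⁆ = ⁅q.out, x⁆ := congrArg (fun t => (t.1 : T)) e
    have e2 : ⁅p.out, y⁆ = ⁅q.out, y⁆ := congrArg (fun t => (t.2 : T)) e
    rw [commutatorElement_def, commutatorElement_def, mul_left_inj] at e1 e2
    rw [← p.out_eq', ← q.out_eq']
    refine QuotientGroup.eq.2 (c3 _ ?_ ?_)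
    · calc _ = p.out⁻¹ * (q.out * x * q.out⁻¹) * p.out := by group
        _ = x := by rw [← e1]; group
    · calc _ = p.out⁻¹ * (q.out * y * q.out⁻¹) * p.out := by group
        _ = y := by rw [← e2]; group
  have c8 : Nat.card (T ⧸ W) = 8 := h.main.1
  have hs := (hΦ.bijective_of_nat_card_le (by
    rw [Nat.card_prod, h.cardZ (by norm_num), h.cardZ (by norm_num), c8]; norm_num)).2
  obtain ⟨a, a1, a2⟩ : ∃ a : T, a * x * a⁻¹ = z * x ∧ a * y * a⁻¹ = y := by
    obtain ⟨q, e⟩ := hs (⟨z, z1⟩, 1)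
    exact ⟨q.out, mul_inv_eq_iff_eq_mul.1 (congrArg (fun t => (t.1 : T)) e),
      mul_inv_eq_one.1 (congrArg (fun t => (t.2 : T)) e)⟩
  obtain ⟨b, b1, b2⟩ : ∃ b : T, b * x * b⁻¹ = x ∧ b * y * b⁻¹ = x * y := by
    obtain ⟨q, e⟩ := hs (1, ⟨x, x2⟩)
    exact ⟨q.out, mul_inv_eq_one.1 (congrArg (fun t => (t.1 : T)) e),
      mul_inv_eq_iff_eq_mul.1 (congrArg (fun t => (t.2 : T)) e)⟩
  have zz : z * z = 1 := h.elem (Z_le 2 (Z_le 1 z1))
  have xx : x * x = 1 := h.elem (Z_le 2 x2)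
  have k1 : ∀ g g' t : T, g * g' * t * (g * g')⁻¹ = g * (g' * t * g'⁻¹) * g⁻¹ := fun g g' t => by group
  have k2 : ∀ g s t : T, g * (s * t) * g⁻¹ = g * s * g⁻¹ * (g * t * g⁻¹) := fun g s t => by group
  have flip : ∀ g g' : T, g * x * g⁻¹ = z * x → g' * x * g'⁻¹ = z * x → g * g' * x * (g * g')⁻¹ = x :=
    fun g g' e e' => by rw [k1, e', k2, hz, e, ← mul_assoc, zz, one_mul]
  have r1 : a * b * x * (a * b)⁻¹ = z * x := by rw [k1, b1, a1]
  have r2 : a * b * y * (a * b)⁻¹ = z * x * y := by rw [k1, b2, k2, a1, a2]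
  have s1 := flip _ _ r1 r1
  have s2 : a * b * (a * b) * y * (a * b * (a * b))⁻¹ = z * y := by
    have zx : x * z = z * x := by nth_rewrite 2 [← hz x]; group
    rw [k1, r2, k2, k2, hz, r1, r2, ← mul_assoc z z, zz, one_mul, ← mul_assoc, ← mul_assoc, zx, mul_assoc z,
      xx, mul_one]
  have aa : (a : T ⧸ W) * a = 1 := (QuotientGroup.eq_one_iff (a * a)).2
    (c3 _ (flip _ _ a1 a1) (by rw [k1, a2, a2]))
  have bb : (b : T ⧸ W) * b = 1 := (QuotientGroup.eq_one_iff (b * b)).2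
    (c3 _ (by rw [k1, b1, b1]) (by rw [k1, b2, k2, b1, b2, ← mul_assoc, xx, one_mul]))
  have n2 : ((a * b : T) : T ⧸ W) ^ 2 ≠ 1 := fun e => by
    have := h.cen y3 ((QuotientGroup.eq_one_iff (a * b * (a * b))).1 (by rw [← e, sq]; rfl))
    rw [← this, mul_inv_cancel_right] at s2
    exact z0 (by simpa using s2.symm)
  have o4 : orderOf ((a * b : T) : T ⧸ W) = 4 := by
    refine orderOf_eq_prime_pow (p := 2) (n := 1) n2 ?_
    rw [show 2 ^ (1 + 1) = 2 + 2 by norm_num, pow_add, sq]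
    exact (QuotientGroup.eq_one_iff (a * b * (a * b) * (a * b * (a * b)))).2
      (c3 _ (by rw [k1, s1, s1]) (by rw [k1, s2, k2, hz, s2, ← mul_assoc, zz, one_mul]))
  have hab : (a : T ⧸ W) * ((a * b : T) : T ⧸ W) * (a : T ⧸ W)⁻¹ = ((a * b : T) : T ⧸ W)⁻¹ := by
    rw [QuotientGroup.mk_mul, ← mul_assoc, aa, one_mul, mul_inv_rev, inv_eq_of_mul_eq_one_right bb]
  have hn : (a : T ⧸ W) ∉ zpowers ((a * b : T) : T ⧸ W) := by
    rintro ⟨k, hk⟩
    rw [← hk, ← (Commute.refl _).zpow_right k, mul_inv_cancel_right] at hab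
    exact n2 (by rw [sq]; nth_rewrite 1 [hab]; simp)
  have hi := dihHom_injective o4 aa hab hn
  refine ⟨MulEquiv.ofBijective _ (hi.bijective_of_nat_card_le (by rw [c8, nat_card])), fun g hg => ?_⟩
  have WZ : W ≤ C[Z 2] := h.hW ▸ cent_anti (Z_le 2)
  have key : ∀ g' : T, g' * x * g'⁻¹ = x → (g : T ⧸ W) = g' → g ∈ C[Z 2] := fun g' e e' => by
    simpa using mul_mem (c2 g' e) (WZ (QuotientGroup.eq.1 e'.symm))
  simp only [MulEquiv.ofBijective_apply] at hg
  rcases hg with e | e | e | e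
  · exact key 1 (by simp) (e.trans (map_one _))
  · refine key _ s1 (e.trans ((dihHom_r _ _ _ 2).trans ?_))
    rw [zpow_two]; rfl
  · refine key _ (flip _ _ a1 r1) (e.trans ((dihHom_sr _ _ _ 1).trans ?_))
    rw [zpow_one]; rfl
  · refine key (a * (a * b) * (a * b * (a * b))) (by rw [k1, s1, flip _ _ a1 r1])
      (e.trans ((dihHom_sr _ _ _ 3).trans ?_))
    rw [show (3 : ℤ) = 1 + 2 by norm_num, zpow_add, zpow_one, zpow_two, ← mul_assoc]; rfl

theorem cc_self {w g : T} (hw : w ∈ W) (h1 : g ∈ C[Z 2]) (h2 : g * g ∈ W) : cc w (g * w * g⁻¹) = 1 := by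
  have hW := h.normal
  have hw' := hW.conj_mem _ hw g
  have ht := h.comm_mem hw hw'
  by_contra e
  rw [cc, sg_eq_one] at e
  have key : ∀ m ∈ W, ∀ v ∈ W, ⁅v, m * w * m⁻¹⁆ = ⁅v, w⁆ := fun m hm v hv => by
    calc _ = v * ⁅m, w⁆ * w * v⁻¹ * w⁻¹ * ⁅m, w⁆⁻¹ := by simp only [commutatorElement_def]; group
      _ = ⁅m, w⁆ * ⁅v, w⁆ * ⁅m, w⁆⁻¹ := by
        rw [← h.cen (h.comm_mem hm hw) hv]; simp only [commutatorElement_def]; group
      _ = _ := by rw [h.cen (h.comm_mem hm hw) (h.ZW (h.comm_mem hv hw))]; group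
  have hg : g ∈ W := h.hW ▸ le_cent1.1 (le_of_rel (h.rel (i := 2) (by norm_num)) (le_cent1.2 h1) ht e
    (mem_cent1.2 (by
      have e1 : g * ⁅w, g * w * g⁻¹⁆ * g⁻¹ = ⁅g * w * g⁻¹, g * g * w * (g * g)⁻¹⁆ := by
        simp only [commutatorElement_def]; group
      rw [key _ h2 _ hw', ← commutatorElement_inv w (g * w * g⁻¹), inv_eq_of_mul_eq_one_right (h.elem ht)] at e1
      exact (mul_inv_eq_iff_eq_mul.1 e1).symm)))
  exact e (by rw [key g hg w hw]; simp)

open DihedralGroup in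
theorem center_eq : (center W).map W.subtype = Z 3 := by
  classical
  haveI := h.normal
  haveI := h.char
  haveI := Fintype.ofFinite (T ⧸ W)
  have hW := h.normal
  have h0 : Z 3 ≤ (center W).map W.subtype := fun z hz =>
    ⟨⟨z, h.ZW hz⟩, mem_center_iff.2 fun u => Subtype.ext (h.cen hz u.2).symm, rfl⟩
  refine le_antisymm ?_ h0
  by_contra hne
  have h4 := h.step (i := 3) (by norm_num) h0 hne
  obtain ⟨-, -, -, Θ, hs, hk, heq⟩ := h.main
  obtain ⟨e, he⟩ := h.d8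
  obtain ⟨⟨w, hw⟩, hΘw⟩ := hs (Pi.mulSingle 1 (-1))
  let ω : T ⧸ W → T := fun q => q.out * w * q.out⁻¹
  have ωW : ∀ q, ω q ∈ W := fun q => hW.conj_mem _ hw _
  have Θω : ∀ q, Θ ⟨ω q, ωW q⟩ = Pi.mulSingle q (-1) := fun q => by
    funext p
    rw [heq q.out ⟨w, hw⟩ _ rfl, hΘw, QuotientGroup.out_eq', Pi.mulSingle_apply, Pi.mulSingle_apply]
    simp [inv_mul_eq_one, eq_comm]
  have cong : ∀ g : T, ∃ t ∈ Z 3, g * w * g⁻¹ = t * ω g := fun g => by
    obtain ⟨m, hm⟩ := QuotientGroup.mk_out_eq_mul W g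
    refine ⟨(g * ⁅(m : T), w⁆ * g⁻¹)⁻¹, inv_mem ((inferInstance : (Z 3).Normal).conj_mem _
      (h.comm_mem m.2 hw) g), ?_⟩
    simp only [ω, hm, commutatorElement_def]; group
  let F : T ⧸ W → ℤˣ := fun q => cc w (ω q)
  have hF : ∀ g : T, cc w (g * w * g⁻¹) = F g := fun g => by
    obtain ⟨t, ht, e⟩ := cong g
    rw [e, h.cc_mul' (h.ZW ht) (ωW _) hw, cc_of_comm (h.cen ht hw).symm, one_mul]
  have hω : ∀ p q, cc (ω p) (ω q) = F (p⁻¹ * q) := fun p q => by
    have : p⁻¹ * q = ((p.out⁻¹ * q.out : T) : T ⧸ W) := by simp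
    rw [this, ← hF, ← cc_conj p.out w]
    congr 1; simp only [ω]; group
  have ω1 : ∀ q, cc (ω 1) (ω q) = F q := fun q => by rw [hω, inv_one, one_mul]
  have F1 : ∀ d, d = r 0 ∨ d = r 2 ∨ d = sr 1 ∨ d = sr 3 → F (e d) = 1 := fun d hd => by
    obtain ⟨g, hg⟩ := QuotientGroup.mk_surjective (e d)
    rw [← hg, ← hF]
    refine h.cc_self hw (he g (by rcases hd with rfl | rfl | rfl | rfl <;> simp [hg]))
      ((QuotientGroup.eq_one_iff _).1 ?_)
    rw [QuotientGroup.mk_mul, hg, ← map_mul, ← map_one e]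
    rcases hd with rfl | rfl | rfl | rfl <;> rfl
  have hprod : ∏ q, F q = 1 := by
    let L : W →* ℤˣ := MonoidHom.mk' (fun u => cc w u) fun u v => h.cc_mul' u.2 v.2 hw
    let L' := Θ.liftOfSurjective hs ⟨L, fun u hu => cc_of_comm (h.cen ((hk u).1 hu) hw).symm⟩
    have hL : ∀ u, L' (Θ u) = L u := fun u => Θ.liftOfRightInverse_comp_apply _ _ _ u
    obtain ⟨y, hy⟩ := hs fun _ => -1
    have y4 : (y : T) ∈ Z 4 := Subgroup.mem_upperCentralSeries_succ_iff.2 fun g => by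
      refine (hk (y * ⟨_, hW.conj_mem _ y⁻¹.2 g⟩)).1 ?_ |> fun t => by
        simpa [commutatorElement_def, mul_assoc] using t
      funext q
      rw [map_mul, Pi.mul_apply, heq g y⁻¹ ⟨_, hW.conj_mem _ y⁻¹.2 g⟩ rfl, map_inv, hy]; rfl
    obtain ⟨y', hy', e'⟩ := h4 y4
    have : L y = 1 := cc_of_comm (e' ▸ congrArg Subtype.val (mem_center_iff.1 hy' ⟨w, hw⟩))
    rw [← hL, hy, ← Finset.univ_prod_mulSingle (fun _ => (-1 : ℤˣ)), map_prod] at this
    rw [← this]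
    exact Finset.prod_congr rfl fun q _ => by rw [← Θω, hL]; rfl
  have K : ∀ q, F (q * e (r 2)) = F q := fun q => by
    obtain ⟨d, rfl⟩ := e.surjective q
    rw [← map_mul]
    refine d4_fun (fun d => F (e d)) (fun d => ?_) (F1 _ (by simp)) (F1 _ (by simp)) (F1 _ (by simp))
      (F1 _ (by simp)) (by rw [← hprod]; exact e.toEquiv.prod_comp F) d
    rw [map_inv, ← mul_one (e d)⁻¹, ← hω, cc_symm, ω1]
  let S : Set T := {s | s ∈ Z 3 ∨ (∃ q, s = ω q * ω (q * e (r 2))) ∨ s = ω 1 * ω (e (sr 1))}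
  have SW : ∀ s ∈ S, s ∈ W := by
    rintro s (hs | ⟨q, rfl⟩ | rfl)
    exacts [h.ZW hs, mul_mem (ωW _) (ωW _), mul_mem (ωW _) (ωW _)]
  have UW : closure S ≤ W := (closure_le _).2 SW
  have ZU : Z 3 ≤ closure S := fun z hz => subset_closure (Or.inl hz)
  have cr : ∀ p q, cc (ω p) (ω q * ω (q * e (r 2))) = 1 := fun p q => by
    rw [h.cc_mul' (ωW _) (ωW _) (ωW _), hω, hω, ← mul_assoc, K, Int.units_mul_self]
  have cS : ∀ s ∈ S, ∀ t ∈ S, cc s t = 1 := by
    have c1 : ∀ s ∈ S, ∀ q, cc s (ω q * ω (q * e (r 2))) = 1 := by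
      rintro s (hs | ⟨p, rfl⟩ | rfl) q
      · exact cc_of_comm (h.cen hs (mul_mem (ωW _) (ωW _)))
      all_goals rw [h.cc_mul (ωW _) (ωW _) (mul_mem (ωW _) (ωW _)), cr, cr, mul_one]
    rintro s hs t (ht | ⟨q, rfl⟩ | rfl)
    · exact cc_of_comm (h.cen ht (SW s hs)).symm
    · exact c1 s hs q
    · rcases hs with hs | ⟨q, rfl⟩ | rfl
      · exact cc_of_comm (h.cen hs (mul_mem (ωW _) (ωW _)))
      · rw [cc_symm]; exact c1 _ (Or.inr (Or.inr rfl)) q
      · exact cc_of_comm rfl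
  have cU : ∀ {A : Set T}, (∀ s ∈ A, s ∈ W) → (∀ s ∈ S, ∀ t ∈ A, cc s t = 1) →
      ∀ s ∈ closure S, ∀ t ∈ A, cc s t = 1 := fun hA H s hs t ht => by
    induction hs using closure_induction with
    | mem x hx => exact H x hx t ht
    | one => exact cc_of_comm (by simp)
    | mul x y a b hx hy => rw [h.cc_mul (UW a) (UW b) (hA t ht), hx, hy, mul_one]
    | inv x a hx => rw [h.cc_inv (UW a) (hA t ht), hx]
  have cU2 := cU (A := closure S) UW fun s hs t ht => by rw [cc_symm]; exact cU SW cS t ht s hs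
  have qω : ∀ p q, sg (Z 2) (ω p * ω q * (ω p * ω q)) = F (p⁻¹ * q) := fun p q => by
    have : ∀ q, sg (Z 2) (ω q * ω q) = sg (Z 2) (w * w) := fun q => by
      rw [← sg_conj (Z 2) q.out (w * w)]; congr 1; simp only [ω]; group
    rw [h.sq_mul (ωW _) (ωW _), this, this, hω, mul_right_comm, Int.units_mul_self, one_mul]
  have sqU : ∀ s ∈ closure S, s * s ∈ Z 2 := fun s hs => by
    rw [← sg_eq_one]
    induction hs using closure_induction with
    | mem x hx =>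
      rcases hx with hx | ⟨q, rfl⟩ | rfl
      · rw [h.elem hx, sg_eq_one]; exact one_mem _
      · rw [qω, inv_mul_cancel_left, F1 _ (by simp)]
      · rw [qω, inv_one, one_mul, F1 _ (by simp)]
    | one => rw [sg_eq_one, mul_one]; exact one_mem _
    | mul x y a b hx hy => rw [h.sq_mul (UW a) (UW b), hx, hy, cU2 x a y b]; simp
    | inv x a hx => rw [← mul_inv_rev, sg_inv, hx]
  refine h.not_le (h.star UW ?_ sqU)
  have stp : ∀ {U : Subgroup T} (q), U ≤ W → Z 3 ≤ U → U.relIndex (U ⊔ zpowers (ω q)) ≤ 2 ∧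
      U ⊔ zpowers (ω q) ≤ W ∧ Z 3 ≤ U ⊔ zpowers (ω q) := fun q h1 h2 =>
    ⟨relIndex_le_two (norm_of_der_le (h.comm_eq ▸ h2) h1 (ωW q)) (h2 (h.sq_mem (ωW q))),
      sup_le h1 (zpowers_le.2 (ωW q)), h2.trans le_sup_left⟩
  obtain ⟨i1, a1, b1⟩ := stp 1 UW ZU
  obtain ⟨i2, a2, b2⟩ := stp (e (r 1)) a1 b1
  obtain ⟨i3, a3, b3⟩ := stp (e (sr 0)) a2 b2
  set N := closure S ⊔ zpowers (ω 1) ⊔ zpowers (ω (e (r 1))) ⊔ zpowers (ω (e (sr 0))) with hN
  have UN : closure S ≤ N := le_sup_left.trans (le_sup_left.trans le_sup_left)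
  have n1 : ω 1 ∈ N := mem_sup_left (mem_sup_left (mem_sup_right (mem_zpowers _)))
  have ωN : ∀ q, ω q ∈ N := fun q => by
    obtain ⟨d, rfl⟩ := e.surjective q
    obtain ⟨d', h1, h2⟩ := d4_cases d
    have h3 : ω (e d') ∈ N := by
      rcases h1 with rfl | rfl | rfl | rfl
      · rw [r_zero, map_one]; exact n1
      · exact mem_sup_left (mem_sup_right (mem_zpowers _))
      · exact mem_sup_right (mem_zpowers _)
      · exact (mul_mem_cancel_left n1).1 (UN (subset_closure (Or.inr (Or.inr rfl))))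
    rcases h2 with rfl | rfl
    · exact h3
    · rw [map_mul]
      exact (mul_mem_cancel_left h3).1 (UN (subset_closure (Or.inr (Or.inl ⟨_, rfl⟩))))
  have hNW : N = W := le_antisymm a3 fun u hu => by
    obtain ⟨n, hn, e1⟩ : Θ ⟨u, hu⟩ ∈ (N.subgroupOf W).map Θ := by
      rw [← Finset.univ_prod_mulSingle (Θ ⟨u, hu⟩)]
      refine Subgroup.prod_mem _ fun q _ => ?_
      rcases Int.units_eq_one_or (Θ ⟨u, hu⟩ q) with e1 | e1 <;> rw [e1]
      · rw [Pi.mulSingle_one]; exact one_mem _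
      · exact ⟨_, ωN q, Θω q⟩
    have := b3 ((hk (n⁻¹ * ⟨u, hu⟩)).1 (by rw [map_mul, map_inv, e1, inv_mul_cancel]))
    exact (mul_mem_cancel_left (inv_mem (mem_subgroupOf.1 hn))).1 this
  rw [← hNW, ← relIndex_mul_relIndex _ _ N (le_sup_left.trans le_sup_left) le_sup_left,
    ← relIndex_mul_relIndex _ _ _ (le_sup_left (a := closure S)) le_sup_left]
  exact Nat.mul_le_mul (Nat.mul_le_mul i1 i2) i3

theorem uniq {V : Subgroup T} (e : V ≃* W) : V = W := by
  have hc : Nat.card V = Nat.card W := Nat.card_congr e.toEquiv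
  have h1 : (V ⊓ W).relIndex W ≤ 8 := by
    have e1 := card_inf_mul_relIndex V W
    have e2 := card_inf_mul_relIndex W V
    rw [inf_comm, hc, ← e1] at e2
    haveI := h.normal
    rw [inf_relIndex_right, ← Nat.eq_of_mul_eq_mul_left (card_pos' _) e2]
    exact (Nat.le_of_dvd (Nat.pos_of_ne_zero index_ne_zero_of_finite)
      (relIndex_dvd_index_of_normal W V)).trans h.index_le
  have h2 : Z 3 ≤ (frattini V).map V.subtype := h.star inf_le_right h1 fun x hx =>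
    sq x ▸ H3.pow_mem_map_frattini (h.pg.to_subgroup V) hx.1
  refine eq_of_le_of_card (h.hW ▸ cent_symm (h2.trans ?_)) hc.ge
  rintro _ ⟨v, hv, rfl⟩
  have h3 : (e v : T) ∈ Z 3 := h.fr ▸ ⟨_, H1.map_frattini_equiv e ▸ ⟨v, hv, rfl⟩, rfl⟩
  refine mem_cent.2 fun u hu => ?_
  have : (⟨u, hu⟩ : V) * v = v * ⟨u, hu⟩ := e.injective (by
    rw [map_mul, map_mul]
    exact Subtype.ext (h.cen h3 (e _).2).symm)
  exact congrArg Subtype.val this

theorem aut_eq_one {α : MulAut T} (ho : (orderOf α).Coprime 2) : α = 1 := by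
  haveI := h.normal
  haveI := h.char
  have hW := h.normal
  have fix : ∀ g : T, α (g⁻¹ * α g) = g⁻¹ * α g → α g = g := fun g e => by
    obtain ⟨k, hk⟩ := IsPGroup.iff_orderOf.1 h.pg (g⁻¹ * α g)
    exact H3.aut_fix_of_fix e (hk ▸ ho.pow_right k)
  have ch : ∀ (N : Subgroup T) [N.Characteristic], ∀ x, α x ∈ N ↔ x ∈ N := fun N hN x => by
    nth_rewrite 2 [← hN.fixed α]; rfl
  have fZ : ∀ i ≤ 4, ∀ x ∈ Z i, α x = x := fun i hi => by
    induction i with
    | zero => intro x hx; rw [mem_bot.1 hx, map_one]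
    | succ i ih =>
      intro x hx
      refine fix x (ih (by omega) _ ((mul_mem_iff (h.rel (by omega)) (inv_mem hx) ((ch _ x).2 hx)).2 ?_))
      rw [inv_mem_iff, ch]
  have hg : ∀ g : T, g⁻¹ * α g ∈ W := fun g => h.hW ▸ H3.aut_inv_mul_mem_centralizer (fZ 3 (by norm_num)) g
  let π := QuotientGroup.mk' (Z 3)
  have cm : ∀ u ∈ W, ∀ v ∈ W, π u * π v = π v * π u := fun u hu v hv => by
    rw [← commutatorElement_eq_one_iff_mul_comm, ← map_commutatorElement]
    exact (QuotientGroup.eq_one_iff _).2 (h.comm_mem hu hv)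
  let d : W →* T ⧸ Z 3 := MonoidHom.mk' (fun u => π ((u : T)⁻¹ * α u)) fun u v => by
    rw [← cm _ (hg v) _ (hg u), coe_mul, mul_inv_rev, map_mul α, mul_assoc, ← mul_assoc (u : T)⁻¹, map_mul,
      map_mul π (_ * _), cm _ (hg u) _ ((ch W _).2 v.2), map_mul π (v : T)⁻¹, mul_assoc]
  haveI : d.range.Normal := ⟨by
    rintro _ ⟨u, rfl⟩ q
    obtain ⟨g, rfl⟩ := QuotientGroup.mk'_surjective _ q
    refine ⟨⟨_, hW.conj_mem _ u.2 g⟩, ?_⟩
    change π (_ * α (g * u * g⁻¹)) = π g * π (_ * _) * (π g)⁻¹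
    rw [show (g * u * g⁻¹)⁻¹ * α (g * u * g⁻¹) = g * ((u : T)⁻¹ * ((g⁻¹ * α g) * α u * (g⁻¹ * α g)⁻¹)) * g⁻¹ by
      rw [map_mul, map_mul, map_inv]; group]
    simp only [map_mul π, map_inv π]
    rw [← map_inv π g, ← map_mul π g⁻¹, cm _ (hg g) _ ((ch W _).2 u.2), mul_inv_cancel_right]⟩
  refine H3.aut_eq_one_of_fix_selfCentralizing h.pg W (h.hW ▸ cent_anti (h.hW ▸ h.ZW)) ho fun u hu => ?_
  by_contra e
  have h1 := H7.inf_center_ne_bot (h.pg.to_quotient (Z 3)) d.range (ne_bot_of_mem ⟨⟨u, hu⟩, rfl⟩ fun e1 =>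
    e (fix u (fZ 3 (by norm_num) _ ((QuotientGroup.eq_one_iff _).1 e1))))
  obtain ⟨_, ⟨⟨v, rfl⟩, h2⟩, h3⟩ := exists_ne_one h1
  have h4 : (v : T)⁻¹ * α v ∈ Z 4 := by
    refine Subgroup.mem_upperCentralSeries_succ_iff.2 fun g => (QuotientGroup.eq_one_iff _).1 ?_
    change π _ = 1
    rw [map_commutatorElement, commutatorElement_eq_one_iff_mul_comm]
    exact (mem_center_iff.1 h2 _).symm
  refine h3 ?_
  change π (_ * α v) = 1
  rw [fix v (fZ 4 le_rfl _ h4), inv_mul_cancel, map_one]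

end Hyp

end H6.Rud
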