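import Cfsg.Agent.H6.SU1
import Cfsg.Agent.H26.SzMult
import Cfsg.Agent.H22.AutG

/-! Central extensions of `SU₃(q)`, `q` even: the `2`-part of the multiplier. -/

set_option autoImplicit false
set_option linter.unusedSectionVars false
set_option linter.unusedVariables false

open Cfsg Subgroup H26.SzModel
open scoped commutatorElement IsMulCommutative

namespace H6.SUM

attribute [-simp] H23.conj_apply

variable {E : Type*} [Field E] [Fintype E] [CharP E 2] {q : ℕ} {hE : Fintype.card E = q ^ 2}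

local notation "σ" => H23.conj hE

theorem ex_s (a : E) : ∃ u : UG hE, u.a = a := by
  have := H23.card_trace_eq hE (μ := σ a * a) (by rw [← H23.conj_apply hE, map_mul, H23.conj_conj, mul_comm])
  have h2 := H23.two_le_of_card_eq_sq hE
  obtain ⟨s, hs⟩ := (Nat.card_ne_zero.1 (this.trans_ne (by omega))).1
  exact ⟨⟨a, s, hs⟩, rfl⟩

theorem ex_norm {s : E} (h : σ s = s) : ∃ a : E, σ a * a = s :=
  (H23.exists_norm_eq hE h).imp fun a ha => by rw [← ha, pow_succ]; rfl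

theorem ex_a {s : E} : ∃ u : UG hE, u.s = s := by
  obtain ⟨a, ha⟩ := ex_norm (hE := hE) (s := s + σ s) (by rw [map_add, H23.conj_conj, add_comm])
  exact ⟨⟨a, s, ha.symm⟩, rfl⟩

theorem s_ne {u : UG hE} (h : u ≠ 1) : u.s ≠ 0 := fun e => h (UG.ext (by simpa [e] using u.tr) e)

theorem fix_of {u : UG hE} (h : u.a = 0) : σ u.s = u.s := by
  have := u.tr
  rw [h, mul_zero, add_comm] at this
  exact CharTwo.add_eq_zero.1 this

theorem comm0 {v : UG hE} (hv : v.a = 0) (u : UG hE) : u * v = v * u := by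
  ext <;> simp [hv, add_comm]

/-- the action of the torus -/
def ac (l : Eˣ) (u : UG hE) : UG hE := ⟨σ l ^ 2 / l * u.a, σ l * l * u.s, by
  have := l.ne_zero
  have h2 : σ l ≠ 0 := by simp
  simp only [map_mul, map_div₀, map_pow, H23.conj_conj]
  field_simp
  linear_combination u.tr⟩

theorem hom_triv {A : Type*} [Group A] (F : UG hE →* A) (hc : ∀ a b, Commute (F a) (F b)) {l : Eˣ}
    (h1 : σ l * l = 1) (h2 : (l : E) ^ 3 ≠ 1) (h : ∀ u, F (ac l u) = F u) (u : UG hE) : F u = 1 := by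
  have t0 : (2 : E) = 0 := CharTwo.two_eq_zero
  have k0 : ∀ v : UG hE, v.a = 0 → F v = 1 := fun v hv => by
    obtain ⟨α, hα⟩ : ∃ α : E, α + σ α = 1 := (ex_s (hE := hE) 1).elim fun u hu => ⟨u.s, by simpa [hu] using u.tr⟩
    obtain ⟨a, ha⟩ := ex_s (hE := hE) 1
    obtain ⟨b, hb⟩ := ex_s (hE := hE) (α * v.s)
    have e : a * b = b * a * v := by
      have := fix_of hv
      ext <;> simp [ha, hb, hv, this, add_comm]
      grind
    have := congrArg F e
    rwa [map_mul, map_mul, map_mul, (hc a b).eq, left_eq_mul] at this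
  have h3 : σ l ^ 2 / l + 1 ≠ 0 := fun e => h2 (by
    have := l.ne_zero
    field_simp at e
    grind)
  obtain ⟨w, hw⟩ := ex_s (hE := hE) (u.a / (σ l ^ 2 / l + 1))
  have e : (ac l w * w⁻¹)⁻¹ * u = (ac l w * w⁻¹)⁻¹ * u := rfl
  have := k0 ((ac l w * w⁻¹)⁻¹ * u) (by
    simp only [UG.mul_a, UG.inv_a, ac, hw]
    rw [← add_one_mul, mul_div_cancel₀ _ h3, CharTwo.add_self_eq_zero])
  simpa [h] using this

theorem form_one {A : Type*} [Group A] (f : E → E → A)
    (h1 : ∀ a a' b, f (a + a') b = f a b * f a' b) (h2 : ∀ a b b', f a (b + b') = f a b * f a b')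
    {D : Set E} (h : ∀ t ∈ D, ∀ a b, f (t * a) (t * b) = f a b) {y : E} (d1 : y ∈ D) (d2 : y + 1 ∈ D)
    (hy : y ^ 4 ≠ y) (a b : E) : f a b = 1 := by
  have t0 : (2 : E) = 0 := CharTwo.two_eq_zero
  have y0 : y ≠ 0 := fun e => hy (by simp [e])
  have y1 : y + 1 ≠ 0 := fun e => hy (by grind)
  have hne : 1 + y⁻¹ + (y + 1)⁻¹ ≠ 0 := fun e => hy (by
    field_simp at e
    grind)
  have k1 : ∀ t ∈ D, t ≠ 0 → ∀ a, f (t⁻¹ * a) b = f a (t * b) := fun t ht t0 a => by
    rw [← h t ht, mul_inv_cancel_left₀ t0]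
  have k0 : ∀ a, f a 0 = 1 := fun a => by
    have := h2 a 0 0
    rw [add_zero] at this
    exact left_eq_mul.1 this
  obtain ⟨c, rfl⟩ : ∃ c, a = (1 + y⁻¹ + (y + 1)⁻¹) * c := ⟨_, (mul_inv_cancel_left₀ hne a).symm⟩
  rw [add_mul, add_mul, h1, h1, k1 y d1 y0, k1 _ d2 y1, one_mul, ← h2, ← h2,
    show b + y * b + (y + 1) * b = 0 by grind, k0]

theorem ex_y (hq : q ≠ 2) : ∃ y : E, y ^ 4 ≠ y ∧
    (∃ l : Eˣ, y = σ l ^ 2 / l) ∧ ∃ l : Eˣ, y + 1 = σ l ^ 2 / l := by
  have t0 : (2 : E) = 0 := CharTwo.two_eq_zero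
  have h2 := H23.two_le_of_card_eq_sq hE
  have he : Even q := by
    obtain ⟨n, -, h⟩ := FiniteField.card E 2
    exact (Nat.even_pow.1 (hE ▸ h ▸ Nat.even_pow.2 ⟨even_two, n.ne_zero⟩)).1
  have k : ∀ y : Eˣ, 3 < orderOf y → (y : E) ^ 4 ≠ y := fun y hy e => by
    have : y ^ 3 = 1 := Units.ext (mul_right_cancel₀ y.ne_zero (by simpa [← pow_succ] using e))
    have := Nat.le_of_dvd three_pos (orderOf_dvd_of_pow_eq_one this)
    omega
  by_cases h4 : q = 4
  · subst h4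
    obtain ⟨y, hy⟩ := H13.exists_unit_orderOf (K := E) (d := 15) (by rw [hE]; norm_num)
    have k1 : ∀ a : E, a ≠ 0 → ∃ l : Eˣ, a = H23.conj hE l ^ 2 / l := fun a ha =>
      ⟨Units.mk0 a ha ^ 13, by
        have := FiniteField.pow_card_sub_one_eq_one a ha
        rw [hE] at this
        rw [H23.conj_apply, eq_div_iff (Units.ne_zero _)]
        simp only [Units.val_pow_eq_pow_val, Units.val_mk0]
        calc a * a ^ 13 = a ^ 14 * (a ^ 15) ^ 6 := by rw [show a ^ 15 = 1 from this]; ring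
          _ = _ := by ring⟩
    have k2 := k y (by omega)
    exact ⟨y, k2, k1 _ y.ne_zero, k1 _ fun e => k2 (by grind)⟩
  obtain ⟨y, hy⟩ := H13.exists_unit_orderOf (K := E) (d := q - 1) (by
    rw [hE]; exact Nat.sub_one_dvd_pow_sub_one q 2)
  have k2 := k y (by obtain ⟨m, rfl⟩ := he; omega)
  have k3 : σ y = y := by
    rw [H23.conj_apply, show q = q - 1 + 1 by omega, pow_succ, ← Units.val_pow_eq_pow_val, ← hy,
      pow_orderOf_eq_one]
    simp
  have k1 : ∀ a : E, a ≠ 0 → σ a = a → ∃ l : Eˣ, a = σ l ^ 2 / l := fun a ha h =>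
    ⟨Units.mk0 a ha, by simp [h, pow_two]⟩
  exact ⟨y, k2, k1 _ y.ne_zero k3, k1 _ (fun e => k2 (by grind)) (by simp [k3])⟩

variable {G : Type*} [Group G] {x : UG hE →* G} {h : Eˣ →* G} {t : G} (M : UM hE x h t)
  {Γ : Type*} [Group Γ] {π : Γ →* G} (hs : Function.Surjective π) (hc : π.ker ≤ center Γ) (hq : q ≠ 2)

include M in
theorem UM.ac (l : Eˣ) (u : UG hE) : h l * x u * (h l)⁻¹ = x (ac l u) := M.hx l u _ rfl rfl

include M hs hc hq

theorem comm_QV {a b : Γ} {u v : UG hE} (ha : π a = x u) (hb : π b = x v) (hv : v.a = 0) : ⁅a, b⁆ = 1 := by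
  choose l hl using hs
  obtain ⟨ν, h1, h2⟩ := H22.exists_norm_one_cube_ne hE hq
  have h0 : ν ≠ 0 := right_ne_zero_of_mul_eq_one h1
  have cc : ∀ u g, g * ⁅l (x u), b⁆ * g⁻¹ = ⁅l (x u), b⁆ := fun u =>
    comm_central hc (by rw [hl, hb, ← map_mul, ← map_mul, comm0 hv])
  have := hom_triv (MonoidHom.mk' (fun u => ⁅l (x u), b⁆) fun u u' => by
      rw [comm_congr hc (x' := l (x u) * l (x u')) (y' := b) (by simp [hl]) rfl, comm_left, cc]
      exact (mul_inv_eq_iff_eq_mul.1 (cc u _)).symm ▸ rfl)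
    (fun u u' => mul_inv_eq_iff_eq_mul.1 (cc u' _)) (l := Units.mk0 ν h0) h1 h2 (fun u => by
      change ⁅l _, b⁆ = ⁅l _, b⁆
      rw [← cc u (l (h (Units.mk0 ν h0))), ← comm_conj]
      refine comm_congr hc (by simp [hl, M.ac]) ?_
      rw [map_mul, map_mul, map_inv, hl, hb, M.ac]
      congr 1
      ext <;> simp [ac, hv, h1]) u
  rwa [comm_congr hc (x' := l (x u)) (y' := b) (by rw [hl, ha]) rfl]

theorem pow_of_comm {z : Γ} (hz : π z = 1) (hz' : z ∈ ⁅x.range.comap π, x.range.comap π⁆) :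
    z ^ (Fintype.card E - 1) = 1 := by
  classical
  have hQV := fun a b u v => comm_QV M hs hc hq (a := a) (b := b) (u := u) (v := v)
  choose l hl using hs
  choose r hr using ex_s (hE := hE)
  let V : Subgroup Γ :=
    { carrier := {a | ∃ v : UG hE, v.a = 0 ∧ π a = x v}
      mul_mem' := fun ⟨u, hu, e⟩ ⟨v, hv, e'⟩ => ⟨u * v, by simp [hu, hv], by simp [e, e']⟩
      one_mem' := ⟨1, rfl, by simp⟩
      inv_mem' := fun ⟨u, hu, e⟩ => ⟨u⁻¹, hu, by simp [e]⟩ }
  have : IsMulCommutative V := ⟨⟨fun ⟨a, u, hu, e⟩ ⟨b, v, hv, e'⟩ => Subtype.ext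
    (commutatorElement_eq_one_iff_mul_comm.1 (hQV a b u v e e' hv))⟩⟩
  let ρ : Eˣ → V →* V := fun s =>
    MonoidHom.mk' (fun a => ⟨l (h s) * a * (l (h s))⁻¹, a.2.elim fun v hv =>
      ⟨ac s v, by simp [ac, hv.1], by simp [hl, hv.2, M.ac]⟩⟩) fun x y => Subtype.ext (by simp)
  have ρ_apply : ∀ s a, (ρ s a : Γ) = l (h s) * a * (l (h s))⁻¹ := fun _ _ => rfl
  have ρ_mul : ∀ s t a, ρ (s * t) a = ρ s (ρ t a) := fun s t a => Subtype.ext (by
    simp only [ρ_apply]
    have k := comm_congr hc (x := l (h (s * t))) (x' := l (h s) * l (h t)) (y := a) (y' := a)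
      (by simp [hl]) rfl
    calc l (h (s * t)) * a * (l (h (s * t)))⁻¹ = ⁅l (h (s * t)), (a : Γ)⁆ * a := by group
      _ = _ := by rw [k]; group)
  let N : V →* V := ∏ s, ρ s
  have N_apply : ∀ a, N a = ∏ s, ρ s a := fun x => MonoidHom.finsetProd_apply _ _ _
  have N_ρ : ∀ t a, N (ρ t a) = N a := fun t a => by
    rw [N_apply, N_apply]
    exact Fintype.prod_equiv (Equiv.mulRight t) _ _ fun s => (ρ_mul s t a).symm
  have mem : ∀ (a b : Γ) (u v : UG hE), π a = x u → π b = x v → ⁅a, b⁆ ∈ V := fun a b u v ha hb =>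
    ⟨⁅u, v⁆, by simp [commutatorElement_def]; grind, by simp [map_commutatorElement, ha, hb]⟩
  have cc : ∀ (a b g : Γ) (u v w : UG hE), π a = x u → π b = x v → π g = x w → g * ⁅a, b⁆ * g⁻¹ = ⁅a, b⁆ :=
    fun a b g u v w ha hb hg => by
      obtain ⟨y, h1, h2⟩ := mem a b u v ha hb
      rw [commutatorElement_eq_one_iff_mul_comm.1 (hQV g _ w y hg h2 h1), mul_inv_cancel_right]
  have k0 : ∀ (a b : Γ) (u v : UG hE), π a = x u → π b = x v → ⁅a, b⁆ = ⁅l (x (r u.a)), b⁆ :=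
    fun a b u v ha hb => by
      rw [comm_congr hc (x' := l (x (u * (r u.a)⁻¹)) * l (x (r u.a))) (y' := b) (by simp [hl, ha]) rfl,
        comm_left, cc _ _ _ _ _ _ (hl _) hb (hl _), ← commutatorElement_inv b (l (x (u * (r u.a)⁻¹))),
        hQV _ _ _ _ hb (hl _) (by simp [hr, CharTwo.add_self_eq_zero]), inv_one, mul_one]
  have k1 : ∀ (a b : Γ) (u v : UG hE), π a = x u → π b = x v → ⁅a, b⁆ = ⁅l (x (r u.a)), l (x (r v.a))⁆ :=
    fun a b u v ha hb => by
      rw [k0 a b u v ha hb, ← commutatorElement_inv, k0 b _ v _ hb (hl _), commutatorElement_inv]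
  obtain ⟨y, y1, y2, y3⟩ := ex_y (hE := hE) hq
  have key := form_one (fun a b => N ⟨⁅l (x (r a)), l (x (r b))⁆, mem _ _ _ _ (hl _) (hl _)⟩)
    (fun a a' b => by
      rw [← map_mul]
      congr 1
      apply Subtype.ext
      have := k1 (l (x (r a')) * l (x (r a))) (l (x (r b))) (r a' * r a) (r b) (by simp [hl]) (hl _)
      rw [UG.mul_a, hr, hr, hr, add_comm, comm_left, cc _ _ _ _ _ _ (hl _) (hl _) (hl _)] at this
      exact this.symm)
    (fun a b b' => by
      rw [← map_mul]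
      congr 1
      apply Subtype.ext
      have := k1 (l (x (r a))) (l (x (r b)) * l (x (r b'))) (r a) (r b * r b') (hl _) (by simp [hl])
      rw [UG.mul_a, hr, hr, hr, comm_right, cc _ _ _ _ _ _ (hl _) (hl _) (hl _)] at this
      exact this.symm)
    (D := {y | ∃ l : Eˣ, y = σ l ^ 2 / l}) (by
      rintro _ ⟨s, rfl⟩ a b
      rw [← N_ρ s ⟨⁅l (x (r a)), l (x (r b))⁆, _⟩]
      congr 1
      apply Subtype.ext
      rw [ρ_apply, ← comm_conj, k1 (l (h s) * l (x (r a)) * (l (h s))⁻¹) _ (ac s (r a)) (ac s (r b))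
        (by simp [hl, M.ac]) (by simp [hl, M.ac])]
      simp only [ac, hr]) y2 y3 y1
  have hle : ⁅x.range.comap π, x.range.comap π⁆ ≤ N.ker.map V.subtype := by
    rw [Subgroup.commutator_le]
    rintro a ⟨u, hu⟩ b ⟨v, hv⟩
    exact ⟨_, key u.a v.a, (k1 a b u v hu.symm hv.symm).symm⟩
  obtain ⟨a, ha, rfl⟩ := hle hz'
  have h2 : ∀ s, ρ s a = a := fun s => Subtype.ext (by
    rw [ρ_apply, Subgroup.mem_center_iff.1 (hc (x := (a : Γ)) hz), mul_inv_cancel_right])
  have h3 : N a = 1 := ha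
  rw [N_apply] at h3
  simp only [h2, Finset.prod_const, Finset.card_univ, Fintype.card_units] at h3
  exact congrArg Subtype.val h3

theorem odd_of_stem {z : Γ} (hz : π z = 1) (hz' : z ∈ commutator Γ) : Odd (orderOf z) := by
  have hi : (x.range.comap π).index = x.range.index := x.range.index_comap_of_surjective hs
  have : (x.range.comap π).FiniteIndex := ⟨hi ▸ M.idx.pos.ne'⟩
  have k := pow_of_comm M hs hc hq (by rw [map_pow, hz, one_pow])
    (H26.pow_index_mem_commutator (x.range.comap π) (hc hz) hz')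
  rw [← pow_mul, hi] at k
  refine (M.idx.mul ?_).of_dvd_nat (orderOf_dvd_of_pow_eq_one k)
  obtain ⟨n, -, e⟩ := FiniteField.card E 2
  exact Nat.Even.sub_odd Fintype.card_pos (e ▸ Nat.even_pow.2 ⟨even_two, n.ne_zero⟩) odd_one

end H6.SUM
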