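import Cfsg.Agent.H6.SU2
import Cfsg.Agent.H10.SylowIn
import Cfsg.Agent.H8.Schur3

/-! Central extensions of `SU₃(q)`, `q` even: the odd part of the multiplier. -/

set_option autoImplicit false
set_option linter.unusedSectionVars false
set_option linter.unusedVariables false

open Cfsg Subgroup H26.SzModel
open scoped commutatorElement IsMulCommutative

namespace H6.SUM

attribute [-simp] H23.conj_apply

variable {E : Type*} [Field E] [Fintype E] [CharP E 2] {q : ℕ} {hE : Fintype.card E = q ^ 2}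

local notation "σ" => H23.conj hE

theorem a_zero {u : UG hE} (h : σ u.s = u.s) : u.a = 0 := by
  simpa [h, CharTwo.add_self_eq_zero] using u.tr.symm

def fU (u : UG hE) : UG hE := ⟨u.a / u.s, u.s⁻¹, by
  by_cases h : u.s = 0
  · simp [h]
  have h2 : σ u.s ≠ 0 := by simpa using h
  simp only [map_div₀, map_inv₀]
  field_simp
  linear_combination u.tr⟩

def gU (u : UG hE) : UG hE := ⟨u.a / σ u.s, u.s⁻¹, by
  by_cases h : u.s = 0
  · simp [h]
  have h2 : σ u.s ≠ 0 := by simpa using h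
  simp only [map_div₀, map_inv₀, H23.conj_conj]
  field_simp
  linear_combination u.tr⟩

theorem ne_of_s {u : UG hE} (h : u.s ≠ 0) : u ≠ 1 := fun e => h (by simp [e])

theorem dec {s : E} (hs : σ s ≠ s) (y : E) : ∃ k d : E, σ k = k ∧ σ d = d ∧ y = k * s + d := by
  have t0 : (2 : E) = 0 := CharTwo.two_eq_zero
  have h : s + σ s ≠ 0 := fun e => hs (by grind)
  have h' : σ s + s ≠ 0 := add_comm s _ ▸ h
  refine ⟨(y + σ y) / (s + σ s), y + (y + σ y) / (s + σ s) * s, by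
    simp [H23.conj_conj, add_comm], ?_, by grind⟩
  simp only [map_add, map_mul, map_div₀, H23.conj_conj]
  field_simp
  grind

variable {G : Type*} [Group G] {x : UG hE →* G} {h : Eˣ →* G} {t : G}
  {Γ : Type*} [Group Γ] {π : Γ →* G} {X : UG hE →* Γ} {T : Γ}

/-- canonical lifts of the `2`-elements -/
structure Lf (x : UG hE →* G) (h : Eˣ →* G) (t : G) (π : Γ →* G) (X : UG hE →* Γ) (T : Γ) : Prop
    extends UM hE x h t where
  surj : Function.Surjective π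
  cen : π.ker ≤ center Γ
  odd : ∀ z, π z = 1 → z * z = 1 → z = 1
  pX : ∀ u, π (X u) = x u
  pT : π T = t
  TT : T * T = 1

def HH (h : Eˣ →* G) (π : Γ →* G) (y : Γ) : Prop := ∃ l, π y = h l
def HT (h : Eˣ →* G) (t : G) (π : Γ →* G) (y : Γ) : Prop := ∃ l, π y = h l * t
def nU (X : UG hE →* Γ) (T : Γ) (u : UG hE) : Γ := (X (fU u))⁻¹ * (T * X u * T) * (X (gU u))⁻¹
def ph (X : UG hE →* Γ) (T : Γ) (u : UG hE) : Γ := nU X T u * nU X T u

theorem nU_eq (u : UG hE) : T * X u * T = X (fU u) * nU X T u * X (gU u) := by simp [nU, mul_assoc]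

theorem HH.mul {a b : Γ} (ha : HH h π a) (hb : HH h π b) : HH h π (a * b) :=
  ha.elim fun l e => hb.elim fun m e' => ⟨l * m, by simp [e, e']⟩
theorem HH.inv {a : Γ} (ha : HH h π a) : HH h π a⁻¹ := ha.elim fun l e => ⟨l⁻¹, by simp [e]⟩
theorem HH.mulT {a b : Γ} (ha : HH h π a) (hb : HT h t π b) : HT h t π (a * b) :=
  ha.elim fun l e => hb.elim fun m e' => ⟨l * m, by simp [e, e', mul_assoc]⟩

namespace Lf
variable (L : Lf x h t π X T) {a b n y : Γ} {u v w : UG hE} {l m : Eˣ} {s c k : E}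
include L

theorem TTm (g : Γ) : T * (T * g) = g := by rw [← mul_assoc, L.TT, one_mul]
theorem ttm (g : G) : t * (t * g) = g := by rw [← mul_assoc, L.tt, one_mul]
theorem Tinv : T⁻¹ = T := inv_eq_of_mul_eq_one_right L.TT

theorem th' (l : Eˣ) : ∃ m : Eˣ, σ l * m = 1 ∧ t * h l * t = h m :=
  ⟨(Units.map (σ).toMonoidHom l)⁻¹, by simp, L.th _ _ (by simp)⟩

theorem cT (ha : HH h π a) : HH h π (T * a * T) :=
  ha.elim fun l e => (L.th' l).elim fun m e' => ⟨m, by simp [e, L.pT, e'.2]⟩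

theorem mT (ha : HT h t π a) : HH h π (a * T) := ha.elim fun l e => ⟨l, by simp [e, L.pT, mul_assoc, L.tt]⟩

theorem Tm (ha : HT h t π a) : HH h π (T * a) := by simpa [mul_assoc, L.TT] using L.cT (L.mT ha)

theorem hT : HT h t π T := ⟨1, by simp [L.pT]⟩

theorem mulH (ha : HT h t π a) (hb : HH h π b) : HT h t π (a * b) := by
  simpa [mul_assoc, L.TT, L.TTm] using ((L.mT ha).mul (L.cT hb)).mulT L.hT

theorem invT (ha : HT h t π a) : HT h t π a⁻¹ := by
  simpa [L.Tinv, mul_assoc, L.TT] using (L.Tm ha).inv.mulT L.hT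

theorem sqT (ha : HT h t π a) : HH h π (a * a) := by
  simpa [mul_assoc, L.TTm] using (L.mT ha).mul (L.Tm ha)

theorem comm (ha : HH h π a) (hb : HH h π b) : Commute a b := by
  obtain ⟨γ, hγ⟩ := IsCyclic.exists_generator (α := Eˣ)
  obtain ⟨g, hg⟩ := L.surj (h γ)
  obtain ⟨l, e⟩ := ha
  obtain ⟨m, e'⟩ := hb
  obtain ⟨i, rfl⟩ := hγ l
  obtain ⟨j, rfl⟩ := hγ m
  rw [← commutatorElement_eq_one_iff_commute, comm_congr L.cen (x' := g ^ i) (y' := g ^ j)
    (by simp [e, hg]) (by simp [e', hg]), commutatorElement_eq_one_iff_commute]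
  exact Commute.zpow_zpow_self g i j

theorem eqX (h1 : π a = x u) (h2 : a ^ 4 = 1) : a = X u := by
  have k : π ((X u)⁻¹ * a) = 1 := by simp [h1, L.pX]
  have k1 := mem_center_iff.1 (L.cen k)
  generalize hz : (X u)⁻¹ * a = z at *
  obtain rfl : a = X u * z := by simp [← hz]
  have k2 : u ^ 4 = 1 := by
    rw [show u ^ 4 = u * u * (u * u) by simp [pow_succ, mul_assoc]]
    exact UG.mul_self_eq_one.2 (CharTwo.add_self_eq_zero _)
  rw [Commute.mul_pow (k1 _), ← map_pow, k2, map_one, one_mul] at h2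
  rw [L.odd z k (L.odd _ (by simp [k]) (by rw [← h2]; simp [pow_succ, mul_assoc])), mul_one]

theorem cX (e : π y = h l) (u : UG hE) : y * X u * y⁻¹ = X (ac l u) :=
  L.eqX (by simp [e, L.pX, L.toUM.ac]) (by
    rw [conj_pow, ← map_pow, show u ^ 4 = u * u * (u * u) by simp [pow_succ, mul_assoc],
      UG.mul_self_eq_one.2 (CharTwo.add_self_eq_zero _)]; simp)

theorem mX (ha : HH h π y) (u : UG hE) : ∃ v, y * X u = X v * y :=
  ha.elim fun l e => ⟨_, mul_inv_eq_iff_eq_mul.1 (L.cX e u)⟩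

theorem Xm (ha : HH h π y) (u : UG hE) : ∃ v, X u * y = y * X v :=
  (L.mX ha.inv u).imp fun v e => by rw [← mul_inv_cancel_left y (X u), e]; group

theorem pN (hu : u ≠ 1) : ∃ l : Eˣ, σ l * u.s = 1 ∧ π (nU X T u) = h l * t := by
  have k := s_ne hu
  have k1 : σ u.s ≠ 0 := by simpa using k
  refine ⟨(Units.mk0 _ k1)⁻¹, by simp [H23.conj_conj, k], ?_⟩
  simp only [nU, map_mul, map_inv π, L.pX, L.pT]
  rw [L.rel u (fU u) (gU u) (Units.mk0 _ k1)⁻¹ (by simp [H23.conj_conj, k]) (by simp [fU, k]) (by simp [fU, k])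
    (by simp [gU, k]) (by simp [gU, k])]
  group

theorem hN (hu : u ≠ 1) : HT h t π (nU X T u) := (L.pN hu).imp fun _ e => e.2

theorem uniq (hu : u ≠ 1) (hn : HT h t π n) (e : T * X u * T = X v * n * X w) : nU X T u = n := by
  rw [nU_eq] at e
  have hm := L.hN hu
  generalize nU X T u = m at *
  obtain ⟨v', e1⟩ := L.Xm (L.mT hn) ((fU u)⁻¹ * v)
  obtain ⟨l, e2⟩ := (L.mT hm).inv.mul (L.mT hn)
  have e3 : T * X (gU u * w⁻¹) * T = (m * T)⁻¹ * (n * T) * X v' := by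
    rw [mul_assoc _ (n * T), ← e1, map_mul, map_mul, map_inv, map_inv, mul_inv_rev, L.Tinv]
    calc _ = T * m⁻¹ * (X (fU u))⁻¹ * (X (fU u) * m * X (gU u)) * (X w)⁻¹ * T := by group
      _ = _ := by rw [e]; group
  obtain ⟨v'', e4⟩ := L.mX ⟨l, e2⟩ v'
  have e5 := L.big (gU u * w⁻¹) v'' l (by
    simpa only [map_mul π (X _), map_mul π _ T, map_mul π T, L.pX, L.pT, e2] using congrArg π (e3.trans e4))
  rw [e5, map_one, mul_one, L.TT, e4] at e3
  have e6 := (L.one v'' l (by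
    simpa only [map_mul π (X _), L.pX, e2, map_one] using congrArg π e3.symm)).1
  rw [e6, map_one, one_mul, eq_comm, inv_mul_eq_one] at e3
  exact mul_right_cancel e3

theorem sq_T (hn : HT h t π n) : Commute (n * n) T := by
  have := ((Commute.refl n).mul_left (Commute.refl n)).inv_right.mul_right (L.comm (L.sqT hn) (L.mT hn))
  rwa [inv_mul_cancel_left] at this

theorem sq_l (hy : HH h π y) (hn : HT h t π n) : y * n * (y * n) = y * T * y * T * (n * n) :=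
  calc _ = y * (n * T * (T * y * T)) * (T * n) := by simp [mul_assoc, L.TTm]
    _ = _ := by rw [(L.comm (L.mT hn) (L.cT hy)).eq]; simp [mul_assoc, L.TTm]

theorem sq_r (hy : HH h π y) (hn : HT h t π n) : n * y * (n * y) = y * n * (y * n) := by
  have := (L.comm hy (L.sqT (L.mulH hn hy))).eq
  exact mul_right_cancel (this.symm.trans (by group))

theorem ac_ne (hu : u ≠ 1) : ac l u ≠ 1 := ne_of_s (by simpa [ac] using s_ne hu)

theorem R0 (hu : u ≠ 1) (l : Eˣ) : ph X T (ac l u) = ph X T u := by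
  obtain ⟨y, hy⟩ := L.surj (h l)
  obtain ⟨m, e⟩ := L.cT ⟨l, hy⟩
  have k := L.uniq (L.ac_ne (l := l) hu) (L.mulH (HH.mulT ⟨m, e⟩ (L.hN hu)) (HH.inv ⟨m, e⟩))
    (v := ac m (fU u)) (w := ac m (gU u)) (by
      rw [← L.cX hy, ← L.cX e, ← L.cX e]
      calc _ = T * y * T * (T * X u * T) * (T * y * T)⁻¹ := by simp [mul_assoc, L.TTm, L.Tinv]
        _ = _ := by rw [nU_eq]; group)
  rw [ph, k, ← mul_inv_cancel_right (ph X T u) (T * y * T), ph, ← (L.comm ⟨m, e⟩ (L.sqT (L.hN hu))).eq]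
  group

theorem R2 (hu : u ≠ 1) : ph X T u⁻¹ = (ph X T u)⁻¹ := by
  rw [ph, L.uniq (inv_ne_one.2 hu) (L.invT (L.hN hu)) (v := (gU u)⁻¹) (w := (fU u)⁻¹) (by
    simp only [map_inv]
    rw [← mul_inv_rev, ← mul_inv_rev, ← mul_assoc, ← nU_eq]
    simp [mul_assoc, L.Tinv]), ph, mul_inv_rev]

theorem gU_ne (hu : u ≠ 1) : gU u ≠ 1 := ne_of_s (by simpa [gU] using s_ne hu)

theorem R3 (hu : u ≠ 1) : ph X T (gU u) = (ph X T u)⁻¹ := by
  have k := L.invT (L.hN hu)
  obtain ⟨v, e⟩ := L.mX (L.Tm k) (fU u)⁻¹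
  rw [ph, L.uniq (L.gU_ne hu) ((L.Tm k).mulT L.hT) (v := v) (w := u) (by
    rw [← mul_assoc, ← e, map_inv]
    calc _ = T * (nU X T u)⁻¹ * (X (fU u))⁻¹ * (X (fU u) * nU X T u * X (gU u)) * T := by group
      _ = _ := by rw [← nU_eq]; simp [mul_assoc, L.TT]), ph, mul_inv_rev]
  calc _ = T * ((nU X T u)⁻¹ * (nU X T u)⁻¹ * T) := by simp [mul_assoc, L.TTm]
    _ = _ := by rw [(L.sq_T k).eq, L.TTm]

theorem R4 (hu : u ≠ 1) (h0 : u.a = 0) : ph X T u = 1 := by
  have k := L.R2 hu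
  rw [inv_eq_of_mul_eq_one_right (UG.mul_self_eq_one.2 h0)] at k
  refine L.odd _ ?_ (mul_eq_one_iff_eq_inv.2 k)
  obtain ⟨l, h1, h2⟩ := L.pN hu
  have h3 : σ l = l := by
    rw [eq_inv_of_mul_eq_one_left h1, ← fix_of h0, ← H23.conj_conj hE l, eq_inv_of_mul_eq_one_left h1, map_inv₀]
  rw [ph, map_mul, h2, mul_assoc, ← mul_assoc t, L.th l l⁻¹ (by simp [h3])]
  simp

theorem R1 (hu : u ≠ 1) (hv : v ≠ 1) (h1 : u * v ≠ 1) (h2 : gU u * fU v ≠ 1) :
    ph X T (u * v) = ph X T u * (ph X T v * ph X T (gU u * fU v)) := by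
  have k1 := L.mT (L.hN hu)
  have k2 := L.Tm (L.hN hv)
  have k3 := L.hN h2
  obtain ⟨a, e1⟩ := L.mX k1 (fU (gU u * fU v))
  obtain ⟨b, e2⟩ := L.Xm k2 (gU (gU u * fU v))
  rw [ph, L.uniq h1 (k1.mulT (L.mulH k3 k2)) (v := fU u * a) (w := b * gU v) (by
    calc _ = T * X u * T * (T * X v * T) := by simp [mul_assoc, L.TTm]
      _ = X (fU u) * (nU X T u * T) * (T * X (gU u * fU v) * T) * (T * nU X T v) * X (gU v) := by
        rw [nU_eq u, nU_eq v]; simp [mul_assoc, L.TTm]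
      _ = X (fU u) * (nU X T u * T * X (fU (gU u * fU v))) * nU X T (gU u * fU v) *
          (X (gU (gU u * fU v)) * (T * nU X T v)) * X (gU v) := by rw [nU_eq]; group
      _ = _ := by rw [e1, e2, map_mul, map_mul]; group),
    L.sq_l k1 (L.mulH k3 k2), L.sq_r k2 k3, L.sq_l k2 k3]
  congr 1
  · simp [ph, mul_assoc, L.TTm, L.TT]
  · congr 1
    calc _ = T * (nU X T v * nU X T v * T) := by simp [mul_assoc, L.TTm]
      _ = _ := by rw [(L.sq_T (L.hN hv)).eq, L.TTm, ph]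

theorem R5 (hu : u.a ≠ 0) (hv : v ≠ 1) (h0 : v.a = 0) :
    ph X T (u * v) = ph X T u * ph X T (gU u * fU v) := by
  have k : u ≠ 1 := fun e => hu (by simp [e])
  rw [L.R1 k hv (fun e => hu (by simpa [h0] using congrArg UG.a e)) fun e => hu (by
    simpa [gU, fU, h0, s_ne k] using congrArg UG.a e), L.R4 hv h0, one_mul]

end Lf

/-- the stabilizer of the symbol -/
def St (X : UG hE →* Γ) (T : Γ) (s : E) : Subgroup Eˣ where
  carrier := {μ | σ μ * μ = 1 ∧ ∀ u v : UG hE, u.s = s → v.s = s → v.a = μ * u.a → ph X T v = ph X T u}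
  one_mem' := ⟨by simp, fun u v h1 h2 h3 => by rw [UG.ext (by simpa using h3) (h2.trans h1.symm)]⟩
  mul_mem' := fun {μ ν} h1 h2 => ⟨by
      rw [Units.val_mul, map_mul, mul_mul_mul_comm, h1.1, h2.1, one_mul], fun u v k1 k2 k3 =>
    (h1.2 ⟨ν * u.a, s, by rw [map_mul, mul_mul_mul_comm, h2.1, one_mul, ← k1, u.tr]⟩ v rfl k2
      (by simp [k3, mul_assoc])).trans (h2.2 u _ k1 rfl rfl)⟩
  inv_mem' := fun {μ} h1 => ⟨by
      rw [Units.val_inv_eq_inv_val, map_inv₀, ← mul_inv, h1.1, inv_one], fun u v k1 k2 k3 =>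
    (h1.2 v u k2 k1 (by simp [k3])).symm⟩

def Full (X : UG hE →* Γ) (T : Γ) (s : E) : Prop := ∀ u v : UG hE, u.s = s → v.s = s → ph X T u = ph X T v

/-- the map `l ↦ l̄ / l` -/
def be (hE : Fintype.card E = q ^ 2) : Eˣ →* Eˣ := Units.map (H23.conj hE).toMonoidHom / MonoidHom.id _

theorem be_val (l : Eˣ) : (be hE l : E) = σ l / l := by simp [be]

theorem be_norm (l : Eˣ) : σ (be hE l) * be hE l = 1 := by simp [be_val, H23.conj_conj]

namespace Lf
variable (L : Lf x h t π X T) {a b n y : Γ} {u v w : UG hE} {l m : Eˣ} {s c k : E}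
include L

theorem st_cube (hs : s ≠ 0) (hm : σ m * m = 1) : m ^ 3 ∈ St X T s := by
  refine ⟨by rw [Units.val_pow_eq_pow_val, map_pow, ← mul_pow, hm, one_pow], fun u v k1 k2 k3 => ?_⟩
  have e : σ m = (m : E)⁻¹ := eq_inv_of_mul_eq_one_left hm
  rw [← L.R0 (u := u) (ne_of_s (k1 ▸ hs)) m⁻¹]
  congr 1
  ext
  · simp [ac, k3, e, pow_succ]
  · simp [ac, k1, k2, e]

theorem st_be (l : Eˣ) : be hE l ∈ St X T (l : E) := by
  have k : be hE l ^ 2 ∈ St X T (l : E) := by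
    refine ⟨by rw [Units.val_pow_eq_pow_val, map_pow, ← mul_pow, be_norm, one_pow], fun u v k1 k2 k3 => ?_⟩
    have hu : u ≠ 1 := ne_of_s (k1 ▸ l.ne_zero)
    have e : σ l ≠ 0 := by simp
    rw [← inv_inv (ph X T u), ← L.R2 hu, ← L.R3 (inv_ne_one.2 hu), ← L.R0 (L.gU_ne (inv_ne_one.2 hu)) l]
    congr 1
    ext
    · simp [ac, gU, k1, k3, be_val, H23.conj_conj]; field_simp
    · simp [ac, gU, k1, k2]; field_simp
  simpa [pow_succ] using mul_mem (L.st_cube l.ne_zero (be_norm l)) (inv_mem k)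

theorem full_of {γ : Eˣ} (hγ : ∀ l, l ∈ zpowers γ) {j : ℤ} (hj : ¬ 3 ∣ j) (hk : σ k = k) (k0 : k ≠ 0) :
    Full X T (k * (γ ^ j : Eˣ)) := by
  have h1 := L.st_be (Units.mk0 k k0 * γ ^ j)
  have h2 := L.st_cube (Units.mk0 k k0 * γ ^ j).ne_zero (be_norm γ)
  rw [map_mul, show be hE (Units.mk0 k k0) = 1 from Units.ext (by simp [be_val, hk, k0]), one_mul,
    map_zpow] at h1
  have h3 : be hE γ ∈ St X T (k * (γ ^ j : Eˣ)) := by
    have := mul_mem (zpow_mem h1 j) (zpow_mem h2 (-((j * j - 1) / 3)))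
    rwa [← zpow_mul, ← zpow_natCast, ← zpow_mul, ← zpow_add, show j * j + (3 : ℕ) * -((j * j - 1) / 3) = 1 by
      obtain ⟨i, rfl | rfl⟩ : ∃ i, j = 3 * i + 1 ∨ j = 3 * i + 2 := ⟨j / 3, by omega⟩
      · rw [show (3 * i + 1) * (3 * i + 1) = 3 * (3 * i * i + 2 * i) + 1 by ring]; omega
      · rw [show (3 * i + 2) * (3 * i + 2) = 3 * (3 * i * i + 4 * i + 1) + 1 by ring]; omega, zpow_one] at this
  intro u v k1 k2
  have e := u.tr.symm.trans ((k1.trans k2.symm) ▸ v.tr)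
  by_cases h0 : v.a = 0
  · rw [UG.ext (x := u) (y := v) (by simpa [h0] using e) (k1.trans k2.symm)]
  have h4 : σ v.a ≠ 0 := by simpa using h0
  obtain ⟨r, r0, hr⟩ := H23.exists_eq_pow_pred hE (μ := u.a / v.a) (by
    rw [pow_succ, ← H23.conj_apply hE, map_div₀]; field_simp; exact e)
  obtain ⟨i, hi⟩ := hγ (Units.mk0 r r0)
  refine (zpow_mem h3 i).2 v u k2 k1 ?_
  have hq := H23.two_le_of_card_eq_sq hE
  rw [← map_zpow, show γ ^ i = _ from hi, be_val, Units.val_mk0, H23.conj_apply, ← pow_sub_one_mul (by omega) r,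
    hr]
  field_simp

theorem full (hs : s ≠ 0) : Full X T s := by
  have t0 : (2 : E) = 0 := CharTwo.two_eq_zero
  by_cases h0 : σ s = s
  · exact fun u v k1 k2 => by
      rw [UG.ext ((a_zero (k1 ▸ h0)).trans (a_zero (k2 ▸ h0)).symm) (k1.trans k2.symm)]
  obtain ⟨γ, hγ⟩ := IsCyclic.exists_generator (α := Eˣ)
  obtain ⟨j, hj⟩ := hγ (Units.mk0 s hs)
  replace hj : ((γ ^ j : Eˣ) : E) = s := congrArg Units.val hj
  by_cases h3 : 3 ∣ j
  swap
  · simpa only [one_mul, hj] using L.full_of hγ h3 (map_one _) one_ne_zero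
  obtain ⟨k, d, h1, h2, e⟩ := dec h0 γ
  have k0 : k ≠ 0 := fun e1 => H23.conj_ne_id hE (RingHom.ext fun y => by
    by_cases y0 : y = 0
    · simp [y0]
    obtain ⟨i, hi⟩ := hγ (Units.mk0 y y0)
    have : ((γ ^ i : Eˣ) : E) = y := congrArg Units.val hi
    simp [← this, e, e1, h2])
  have f1 := L.full_of hγ (j := 1) (by omega) (k := k⁻¹) (by simp [h1]) (by simpa)
  rw [zpow_one] at f1
  by_cases d0 : d = 0
  · rwa [e, d0, add_zero, inv_mul_cancel_left₀ k0] at f1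
  have f2 := L.full_of hγ (j := j - 1) (by omega) (k := k * k / d) (by simp [h1, h2]) (by simp [k0, d0])
  let z : UG hE := ⟨0, d / k, by simp [h1, h2, CharTwo.add_self_eq_zero]⟩
  have z1 : z ≠ 1 := ne_of_s (by simp [z, k0, d0])
  have e1 : ∀ u : UG hE, u.s = s → (u * z).s = k⁻¹ * γ := fun u hu => by
    simp [z, hu, e]; field_simp
  have e2 : ∀ u : UG hE, u.s = s → (gU (u * z) * fU z).s = k * k / d * (γ ^ (j - 1) : Eˣ) := fun u hu => by
    have := γ.ne_zero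
    rw [zpow_sub_one, Units.val_mul, hj]
    simp only [UG.mul_s, gU, fU, e1 u hu, z]
    simp
    field_simp
    grind
  have e3 : ∀ u : UG hE, u.s = s → ph X T u = ph X T (u * z) * ph X T (gU (u * z) * fU z) := fun u hu => by
    rw [← L.R5 (fun e => h0 (hu ▸ fix_of (by simpa [z] using e))) z1 rfl, mul_assoc,
      UG.mul_self_eq_one.2 rfl, mul_one]
  exact fun u v k1 k2 => by rw [e3 u k1, e3 v k2, f1 _ _ (e1 u k1) (e1 v k2), f2 _ _ (e2 u k1) (e2 v k2)]

theorem exists_ps : ∃ ψ : Eˣ →* Γ, (∀ k : Eˣ, σ k = k → ψ k = 1) ∧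
    ∀ (u : UG hE) (s : Eˣ), u.s = s → ph X T u = ψ s := by
  have t0 : (2 : E) = 0 := CharTwo.two_eq_zero
  choose r hr using fun s => ex_a (hE := hE) (s := s)
  have e0 : ∀ u : UG hE, u.s ≠ 0 → ph X T u = ph X T (r u.s) := fun u hu => L.full hu _ _ rfl (hr _)
  have r1 : ∀ s, s ≠ 0 → r s ≠ 1 := fun s hs => ne_of_s (by rwa [hr])
  have e1 : ∀ k, k ≠ 0 → σ k = k → ph X T (r k) = 1 := fun k k0 hk =>
    L.R4 (r1 k k0) (a_zero (by rwa [hr]))
  have e2 : ∀ k s, k ≠ 0 → σ k = k → s ≠ 0 → ph X T (r (k * s)) = ph X T (r s) := fun k s k0 hk hs => by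
    obtain ⟨l, rfl⟩ := ex_norm hk
    rw [← L.R0 (r1 s hs) (Units.mk0 l (right_ne_zero_of_mul k0)), e0 (ac _ _) (by
      simpa [ac, hr, hs] using k0)]
    simp [ac, hr]
  refine ⟨MonoidHom.mk' (fun s => ph X T (r s)) fun s s' => ?_, fun k hk => e1 k k.ne_zero hk,
    fun u s e => by rw [e0 u (e ▸ s.ne_zero), e]; rfl⟩
  have s0 := s.ne_zero
  have s1 := s'.ne_zero
  rw [Units.val_mul]
  by_cases h1 : σ s = s
  · rw [e2 _ _ s0 h1 s1, e1 _ s0 h1, one_mul]
  obtain ⟨k, d, h2, h3, e⟩ := dec h1 (s * s')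
  by_cases k0 : k = 0
  · have e3 : (s : E) * s' = d := by simpa [k0] using e
    rw [e1 _ (mul_ne_zero s0 s1) (e3 ▸ h3), show (s' : E) = d * (s : E)⁻¹ by rw [← e3]; field_simp,
      e2 _ _ (e3 ▸ mul_ne_zero s0 s1) h3 (inv_ne_zero s0), ← mul_inv_cancel (ph X T (r s)), ← L.R3 (r1 _ s0),
      e0 (gU _) (by simp [gU, hr])]
    simp [gU, hr]
  by_cases d0 : d = 0
  · have e3 : (s' : E) = k := mul_left_cancel₀ s0 (by rw [e, d0]; ring)
    rw [mul_comm, e2 _ _ s1 (e3 ▸ h2) s0, e1 _ s1 (e3 ▸ h2), mul_one]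
  let z : UG hE := ⟨0, d / k, by simp [h2, h3, CharTwo.add_self_eq_zero]⟩
  have z1 : z ≠ 1 := ne_of_s (by simp [z, k0, d0])
  have e4 : (s : E) * s' = k * (r s * z).s := by simp [z, hr, e]; field_simp
  have e5 : (s' : E) = d * (gU (r s) * fU z).s := by
    simp [z, hr, gU, fU]
    field_simp
    grind
  have e6 : (r s * z).s ≠ 0 := right_ne_zero_of_mul (e4 ▸ mul_ne_zero s0 s1)
  have e7 : (gU (r s) * fU z).s ≠ 0 := right_ne_zero_of_mul (e5 ▸ s1)
  rw [e4, e2 _ _ k0 h2 e6, ← e0 _ e6, L.R5 (fun e => h1 (by simpa [hr] using fix_of e)) z1 rfl, e0 _ e7]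
  nth_rewrite 1 [e5]
  rw [e2 _ _ d0 h3 e7]

theorem main {z : Γ} (hz : π z = 1) (hz' : z ∈ commutator Γ) : z = 1 := by
  obtain ⟨ψ, p1, p2⟩ := L.exists_ps
  let P : Γ → Prop := fun y => ∃ l, π y = h l ∧ y * T * y * T = ψ l
  have P0 : ∀ y, P y → HH h π y := fun y hy => hy.imp fun _ e => e.1
  have pe : ∀ l m : Eˣ, σ l * m = 1 → ψ m = ψ l := fun l m e => by
    rw [← inv_mul_eq_one, ← map_inv, ← map_mul]
    refine p1 _ ?_
    have e1 : (l : E) = (σ m)⁻¹ := by rw [← H23.conj_conj hE l, eq_inv_of_mul_eq_one_left e, map_inv₀]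
    simp [e1, H23.conj_conj, mul_comm]
  have P1 : ∀ y, P y → P (T * y * T) := fun y ⟨l, e1, e2⟩ => by
    obtain ⟨m, e3, e4⟩ := L.th' l
    refine ⟨m, by simp [e1, L.pT, e4], ?_⟩
    rw [pe l m e3, ← e2, mul_assoc y, mul_assoc y, (L.comm ⟨l, e1⟩ (L.cT ⟨l, e1⟩)).eq]
    simp [mul_assoc, L.TTm, L.TT]
  have P2 : ∀ a b, P a → P b → P (a * b) := fun a b ⟨l, e1, e2⟩ ⟨m, e3, e4⟩ => ⟨l * m, by simp [e1, e3], by
    rw [map_mul, ← e2, ← e4]
    calc _ = a * (b * (T * a * T)) * (T * b * T) := by simp [mul_assoc, L.TTm]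
      _ = _ := by rw [(L.comm ⟨m, e3⟩ (L.cT ⟨l, e1⟩)).eq]; group⟩
  have P3 : ∀ u, u ≠ 1 → P (nU X T u * T) := fun u hu => by
    obtain ⟨l, e1, e2⟩ := L.pN hu
    refine ⟨l, by simp [e2, L.pT, mul_assoc, L.tt], ?_⟩
    rw [← pe l (Units.mk0 _ (s_ne hu)) e1, ← p2 u _ rfl]
    simp [ph, mul_assoc, L.TTm, L.TT]
  have key : ∀ g ∈ closure (X.range ∪ {T} : Set Γ),
      (∃ u y, P y ∧ g = X u * y) ∨ ∃ u y v, P y ∧ g = X u * y * T * X v := by
    have kX : ∀ w g, ((∃ u y, P y ∧ g = X u * y) ∨ ∃ u y v, P y ∧ g = X u * y * T * X v) →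
        (∃ u y, P y ∧ X w * g = X u * y) ∨ ∃ u y v, P y ∧ X w * g = X u * y * T * X v := by
      rintro w _ (⟨u, y, hy, rfl⟩ | ⟨u, y, v, hy, rfl⟩)
      exacts [Or.inl ⟨w * u, y, hy, by simp [mul_assoc]⟩, Or.inr ⟨w * u, y, v, hy, by simp [mul_assoc]⟩]
    have kT : ∀ g, ((∃ u y, P y ∧ g = X u * y) ∨ ∃ u y v, P y ∧ g = X u * y * T * X v) →
        (∃ u y, P y ∧ T * g = X u * y) ∨ ∃ u y v, P y ∧ T * g = X u * y * T * X v := by
      rintro _ (⟨u, y, hy, rfl⟩ | ⟨u, y, v, hy, rfl⟩)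
      · obtain ⟨w, e⟩ := L.Xm (P0 y hy) u
        exact Or.inr ⟨1, _, w, P1 y hy, by simp [e, mul_assoc, L.TTm]⟩
      by_cases hu : u = 1
      · obtain ⟨w, e⟩ := L.mX (P0 _ (P1 y hy)) v
        exact Or.inl ⟨w, _, P1 y hy, by rw [← e, hu]; simp [mul_assoc]⟩
      obtain ⟨w, e⟩ := L.Xm (P0 _ (P1 y hy)) (gU u)
      refine Or.inr ⟨fU u, _, w * v, P2 _ _ (P3 u hu) hy, ?_⟩
      calc _ = T * X u * T * (T * y * T) * X v := by simp [mul_assoc, L.TTm]
        _ = X (fU u) * nU X T u * (X (gU u) * (T * y * T)) * X v := by rw [nU_eq]; group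
        _ = _ := by rw [e, map_mul]; group
    intro g hg
    induction hg using closure_induction_left with
    | one => exact Or.inl ⟨1, 1, ⟨1, by simp, by simp [L.TT]⟩, by simp⟩
    | mul_left a ha g _ ih =>
      rcases ha with ⟨w, rfl⟩ | rfl
      exacts [kX w g ih, kT g ih]
    | inv_mul_cancel a ha g _ ih =>
      rcases ha with ⟨w, rfl⟩ | rfl
      exacts [map_inv X w ▸ kX _ g ih, L.Tinv.symm ▸ kT g ih]
  have lift : ∀ g, ∃ a ∈ closure (X.range ∪ {T} : Set Γ), π a = π g := fun g => by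
    have : (closure (X.range ∪ {T} : Set Γ)).map π = ⊤ := by
      rw [eq_top_iff, ← L.gen, closure_le]
      rintro _ (⟨w, rfl⟩ | rfl)
      exacts [⟨X w, subset_closure (Or.inl ⟨w, rfl⟩), L.pX w⟩, ⟨T, subset_closure (Or.inr rfl), L.pT⟩]
    exact this.ge (mem_top (π g))
  have hle : commutator Γ ≤ closure (X.range ∪ {T} : Set Γ) := commutator_le.2 fun a _ b _ => by
    obtain ⟨a', h1, h2⟩ := lift a
    obtain ⟨b', h3, h4⟩ := lift b
    rw [← comm_congr L.cen h2 h4]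
    exact mul_mem (mul_mem (mul_mem h1 h3) (inv_mem h1)) (inv_mem h3)
  rcases key z (hle hz') with ⟨u, y, ⟨l, e1, e2⟩, rfl⟩ | ⟨u, y, v, ⟨l, e1, -⟩, rfl⟩
  · obtain ⟨rfl, rfl⟩ := L.one u l (by simpa [L.pX, e1] using hz)
    rw [map_one, one_mul] at *
    refine L.odd _ hz ?_
    rwa [mul_assoc y, mem_center_iff.1 (L.cen hz) T, mul_assoc, mul_assoc, L.TT, mul_one] at e2
  · exact absurd (by simpa [L.pX, L.pT, e1, mul_assoc] using hz) (L.ne u v l)

end Lf

theorem exists_lift [Finite Γ] {U : Type*} [Group U] (hU : IsPGroup 2 U) (x : U →* G)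
    (hs : Function.Surjective π) (ho : ∀ z, π z = 1 → Odd (orderOf z)) : ∃ X : U →* Γ, ∀ u, π (X u) = x u := by
  obtain ⟨P, hP⟩ := H10.exists_isSylowIn 2 (x.range.comap π)
  have h1 := hP.map π
  rw [map_comap_eq_self_of_surjective hs] at h1
  have h2 := h1.eq_of_le (hU.of_surjective _ x.rangeRestrict_surjective) h1.le le_rfl
  choose X hX hX' using fun u => h2.le (⟨u, rfl⟩ : x u ∈ x.range)
  refine ⟨MonoidHom.mk' X fun u v => ?_, hX'⟩
  have k := P.mul_mem (P.inv_mem (hX (u * v))) (P.mul_mem (hX u) (hX v))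
  obtain ⟨k, e⟩ := H10.orderOf_eq_pow_of_mem hP.isPGroup k
  have := ho ((X (u * v))⁻¹ * (X u * X v)) (by simp [hX'])
  rw [← inv_mul_eq_one, ← orderOf_eq_one_iff, e]
  rw [e] at this
  rcases k with _ | k
  · rfl
  · exact absurd this (by simp [pow_succ])

theorem UM.mult [Finite Γ] (M : UM hE x h t) (hq : q ≠ 2) (hp : Group.IsPerfect G) (hs : Function.Surjective π)
    (hc : π.ker ≤ center Γ) {z : Γ} (hz : π z = 1) (hz' : z ∈ commutator Γ) : z = 1 := by
  have h1 := H8.commutator_surj_of_perfect hp hs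
  have ho : ∀ z : commutator Γ, π.comp (commutator Γ).subtype z = 1 → Odd (orderOf z) := fun z hz =>
    orderOf_coe z ▸ odd_of_stem M hs hc hq hz z.2
  obtain ⟨X, hX⟩ := exists_lift (U := UG hE) (fun u => ⟨2, by
    rw [show u ^ 2 ^ 2 = u * u * (u * u) by simp [pow_succ, mul_assoc]]
    exact UG.mul_self_eq_one.2 (CharTwo.add_self_eq_zero _)⟩) x h1 ho
  obtain ⟨a, ha⟩ := h1 t
  have h2 := ho (a * a) (by rw [map_mul, ha, M.tt])
  have L : Lf x h t (π.comp (commutator Γ).subtype) X (a ^ orderOf (a * a)) :=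
    ⟨M, h1, fun y hy => mem_center_iff.2 fun g => Subtype.ext (mem_center_iff.1 (hc hy) g),
      fun y hy e => orderOf_eq_one_iff.1 ((Nat.coprime_two_right.2 (ho y hy)).eq_one_of_dvd
        (orderOf_dvd_of_pow_eq_one (by rw [pow_two, e]))), hX, by
      obtain ⟨k, e⟩ := h2
      rw [map_pow, ha, e, pow_succ, pow_mul, pow_two, M.tt, one_pow, one_mul], by
      rw [← (Commute.refl a).mul_pow, pow_orderOf_eq_one]⟩
  exact congrArg Subtype.val (L.main (z := ⟨z, hz'⟩) hz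
    ((H8.perfect_commutator_of_central hp hs hc).1.ge trivial))

theorem su3_mult (hE : Fintype.card E = q ^ 2) (hq : q ≠ 2) [Finite Γ] {π : Γ →* SU 3 E q}
    (hs : Function.Surjective π) (hc : π.ker ≤ center Γ) {z : Γ} (hz : π z = 1) (hz' : z ∈ commutator Γ) :
    z = 1 := by
  obtain ⟨u, hu⟩ := ex_s (hE := hE) 1
  have hα : H23.conj hE u.s = u.s + 1 := by
    have t0 : (2 : E) = 0 := CharTwo.two_eq_zero
    have := u.tr
    rw [hu, map_one] at this
    grind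
  exact (um hα hq).mult hq ⟨H22.commutator_SU_eq_top hE 3 le_rfl (by simpa)⟩ hs hc hz hz'

theorem su3_cover (hE : Fintype.card E = q ^ 2) (hq : q ≠ 2) {K : Type*} [Group K] [Finite K]
    (hX : Group.IsPerfect K) (f : K →* PSU 3 E q) (hf : Function.Surjective f) (hk : f.ker ≤ center K) :
    Nonempty (K ≃* PSU 3 E q) ∨ Nonempty (K ≃* SU 3 E q) := by
  let π : SU 3 E q →* PSU 3 E q := QuotientGroup.mk' _
  let Y : Subgroup (K × SU 3 E q) :=
    (f.comp (MonoidHom.fst K (SU 3 E q))).eqLocus (π.comp (MonoidHom.snd K (SU 3 E q)))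
  let ξ : Y →* SU 3 E q := (MonoidHom.snd K (SU 3 E q)).comp Y.subtype
  let η : Y →* K := (MonoidHom.fst K (SU 3 E q)).comp Y.subtype
  have hξ : Function.Surjective ξ := fun s => (hf (π s)).elim fun x hx => ⟨⟨(x, s), hx⟩, rfl⟩
  have hη : Function.Surjective η := fun x =>
    (QuotientGroup.mk'_surjective _ (f x)).elim fun s hs => ⟨⟨(x, s), hs.symm⟩, rfl⟩
  have hker : ∀ y ∈ ξ.ker, y.1.2 = 1 ∧ y.1.1 ∈ f.ker := fun y hy =>
    ⟨hy, (y.2.trans (congrArg π hy)).trans (map_one π)⟩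
  have hc : ξ.ker ≤ center Y := fun y hy => mem_center_iff.2 fun g =>
    Subtype.ext (Prod.ext (mem_center_iff.1 (hk (hker y hy).2) _) (by simp [(hker y hy).1]))
  have b1 : Function.Bijective (ξ.comp (commutator Y).subtype) :=
    ⟨(injective_iff_map_eq_one _).2 fun y hy => Subtype.ext (su3_mult hE hq hξ hc hy y.2),
      H8.commutator_surj_of_perfect ⟨H22.commutator_SU_eq_top hE 3 le_rfl (by simpa)⟩ hξ⟩
  let g : SU 3 E q →* K := (η.comp (commutator Y).subtype).comp (MulEquiv.ofBijective _ b1).symm.toMonoidHom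
  have hg : Function.Surjective g := (H8.commutator_surj_of_perfect hX hη).comp (MulEquiv.surjective _)
  have h1 : g.ker ≤ center _ := fun s hs => by
    obtain ⟨y, rfl⟩ := (MulEquiv.ofBijective _ b1).surjective s
    have k : y.1.1.1 = 1 := (congrArg (η.comp (commutator Y).subtype)
      ((MulEquiv.ofBijective _ b1).symm_apply_apply y)).symm.trans hs
    exact (QuotientGroup.eq_one_iff _).1 (y.1.2.symm.trans (show f y.1.1.1 = 1 by rw [k, map_one]))
  have h2 := card_dvd_of_le h1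
  have h3 := H22.card_center_SU hE 3 (by norm_num)
  rcases (Nat.dvd_prime Nat.prime_three).1 (h2.trans (h3 ▸ Nat.gcd_dvd_left _ _)) with e | e
  · exact Or.inr ⟨(MulEquiv.ofBijective g ⟨(MonoidHom.ker_eq_bot_iff g).1 (card_eq_one.1 e), hg⟩).symm⟩
  · exact Or.inl ⟨((QuotientGroup.quotientMulEquivOfEq (eq_of_le_of_card_ge h1 (by
      rw [e, h3]; exact Nat.gcd_le_left _ three_pos)).symm).trans
      (QuotientGroup.quotientKerEquivOfSurjective g hg)).symm⟩

end H6.SUM
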